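import Cfsg.Agent.H48.G2Spec.Linear

/-!
# The cubic of a stabiliser of an idempotent of `G₂`, odd characteristic

The extension of scalars, `perm_three`, `prod_dvd` and much of `fixed_case` follow
`Cfsg.Agent.H62.G2Orders.Upper`, which is written for characteristic two.
-/

set_option autoImplicit false

open Matrix hiding swap one
open Cfsg.Lie Polynomial
open Cfsg.Agent.H62.Covering.G2 Cfsg.Agent.H62.G2Orders

namespace Cfsg.Agent.H48.G2Spec

section bilinear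

variable {K : Type*} [Field K]

local notation "O" => (Fin 8 → K)

set_option maxHeartbeats 1000000 in
/-- The product as a bilinear map. -/
def zornBil : O →ₗ[K] O →ₗ[K] O :=
  LinearMap.mk₂ K zornMul
    (fun x x' y => by funext i; fin_cases i <;> simp [zornMul, dot3, cross3] <;> ring)
    (fun c x y => by funext i; fin_cases i <;> simp [zornMul, dot3, cross3] <;> ring)
    (fun x y y' => by funext i; fin_cases i <;> simp [zornMul, dot3, cross3] <;> ring)
    (fun c x y => by funext i; fin_cases i <;> simp [zornMul, dot3, cross3] <;> ring)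

/-- Automorphisms may be tested on unit vectors. -/
theorem mem_G2_of_single (g : GL (Fin 8) K)
    (h : ∀ i j : Fin 8, (g : Matrix (Fin 8) (Fin 8) K) *ᵥ zornMul (Pi.single i 1) (Pi.single j 1) =
      zornMul ((g : Matrix (Fin 8) (Fin 8) K) *ᵥ Pi.single i 1) ((g : Matrix (Fin 8) (Fin 8) K) *ᵥ Pi.single j 1)) :
    g ∈ Lie.G2 K := by
  intro x y
  set L := Matrix.mulVecLin (g : Matrix (Fin 8) (Fin 8) K)
  have key : (zornBil (K := K)).compr₂ L = zornBil.compl₁₂ L L := by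
    refine (Pi.basisFun K (Fin 8)).ext fun i => (Pi.basisFun K (Fin 8)).ext fun j => ?_
    simpa [L, zornBil, Pi.basisFun_apply] using h i j
  exact LinearMap.congr_fun (LinearMap.congr_fun key x) y

end bilinear

section map

variable {F K : Type*} [Field F] [Field K] (f : F →+* K)

theorem map_zornMul (x y : Fin 8 → F) : zornMul (f ∘ x) (f ∘ y) = f ∘ zornMul x y := by
  funext i; fin_cases i <;> simp [zornMul, dot3, cross3]

theorem comp_mulVec (M : Matrix (Fin 8) (Fin 8) F) (v : Fin 8 → F) : M.map f *ᵥ (f ∘ v) = f ∘ (M *ᵥ v) :=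
  (funext (RingHom.map_mulVec f M v)).symm

theorem map_mem_G2 (g : ↥(Lie.G2 F)) :
    Units.map (f.mapMatrix : Matrix (Fin 8) (Fin 8) F →+* _).toMonoidHom (g : GL (Fin 8) F) ∈ Lie.G2 K := by
  refine mem_G2_of_single _ fun i j => ?_
  have hs : ∀ i : Fin 8, (Pi.single i (1 : K) : Fin 8 → K) = f ∘ Pi.single i 1 := fun i => by
    funext l; by_cases hl : l = i <;> simp [hl, Pi.single_apply]
  show (mat g).map f *ᵥ _ = zornMul ((mat g).map f *ᵥ _) ((mat g).map f *ᵥ _)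
  rw [hs, hs, map_zornMul, comp_mulVec, comp_mulVec, comp_mulVec, map_zornMul, map_mul']

/-- Extension of scalars. -/
def mapG2 : ↥(Lie.G2 F) →* ↥(Lie.G2 K) :=
  MonoidHom.codRestrict ((Units.map (f.mapMatrix : Matrix (Fin 8) (Fin 8) F →+* _).toMonoidHom).comp
    (Lie.G2 F).subtype) _ (map_mem_G2 f)

theorem mat_mapG2 (g : ↥(Lie.G2 F)) : mat (mapG2 f g) = (mat g).map f := rfl

theorem mapG2_injective : Function.Injective (mapG2 f) := fun _ _ h =>
  Subtype.ext (Units.ext (Matrix.map_injective f.injective (congrArg (fun k => mat k) h)))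

end map

section perm

variable {K : Type*} [Field K]

/-- An injective map of three numbers into themselves. -/
theorem perm_three {a b c : K} (φ : K → K) (hinj : Function.Injective φ) (hab : a ≠ b) (hac : a ≠ c) (hbc : b ≠ c)
    (h : ∀ x, x = a ∨ x = b ∨ x = c → φ x = a ∨ φ x = b ∨ φ x = c) :
    (φ (φ a) = a ∧ φ (φ b) = b ∧ φ (φ c) = c) ∨ (φ a = b ∧ φ b = c ∧ φ c = a) ∨
      (φ a = c ∧ φ b = a ∧ φ c = b) := by
  have nab : φ a ≠ φ b := fun e => hab (hinj e)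
  have nac : φ a ≠ φ c := fun e => hac (hinj e)
  have nbc : φ b ≠ φ c := fun e => hbc (hinj e)
  rcases h a (Or.inl rfl) with ha | ha | ha <;> rcases h b (Or.inr (Or.inl rfl)) with hb | hb | hb <;>
    rcases h c (Or.inr (Or.inr rfl)) with hc | hc | hc <;> simp_all

/-- Three linear factors divide `X ^ M - 1`. -/
theorem prod_dvd (a b c : K) {M : ℕ} (hM : ∀ x, x = a ∨ x = b ∨ x = c → x ^ M = 1) (hab : a ≠ b) (hac : a ≠ c)
    (hbc : b ≠ c) : (X - C a) * (X - C b) * (X - C c) ∣ X ^ M - 1 := by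
  have hd : ∀ x, x = a ∨ x = b ∨ x = c → (X - C x) ∣ X ^ M - 1 := fun x hx => by
    rw [dvd_iff_isRoot]; simp [hM x hx]
  have hco : ∀ {x y : K}, x ≠ y → IsCoprime (X - C x) (X - C y) := fun hxy =>
    Polynomial.isCoprime_X_sub_C_of_isUnit_sub (sub_ne_zero.2 hxy).isUnit
  exact ((hco hac).mul_left (hco hbc)).mul_dvd ((hco hab).mul_dvd (hd _ (Or.inl rfl)) (hd _ (Or.inr (Or.inl rfl))))
    (hd _ (Or.inr (Or.inr rfl)))

end perm

/-- The five numbers of the semisimple-like cases. -/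
def fiveSet (p a : ℕ) : Set ℕ :=
  {p * (p ^ a + 1), p * (p ^ a - 1), p ^ (2 * a) - 1, p ^ (2 * a) + p ^ a + 1, p ^ (2 * a) - p ^ a + 1}

theorem pow_eq_one_of_mul {K : Type*} [Field K] {x : K} {m k : ℕ} (h : x ^ (m + k) = x ^ k) (hx : x ≠ 0) :
    x ^ m = 1 := by
  rw [pow_add] at h
  exact (mul_eq_right₀ (pow_ne_zero k hx)).1 h

section cubic

variable {K : Type*} [Field K] {p : ℕ} [hp : Fact p.Prime] [CharP K p]

theorem prod_dvd_char (hp2 : p ≠ 2) (a b c : K) {M : ℕ} (hM : ∀ x, x = a ∨ x = b ∨ x = c → x ^ M = 1) :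
    (X - C a) * (X - C b) * (X - C c) ∣ X ^ (p * M) - 1 := by
  have hd : ∀ x, x = a ∨ x = b ∨ x = c → (X - C x) ∣ X ^ M - 1 := fun x hx => by
    rw [dvd_iff_isRoot]; simp [hM x hx]
  have h3 : 3 ≤ p := by have := hp.out.two_le; omega
  have e : (X : K[X]) ^ (p * M) - 1 = (X ^ M - 1) ^ p := by
    rw [sub_pow_char, one_pow, mul_comm, pow_mul]
  rw [e]
  refine Dvd.dvd.trans ?_ (pow_dvd_pow _ h3)
  rw [pow_three, ← mul_assoc]
  exact mul_dvd_mul (mul_dvd_mul (hd a (Or.inl rfl)) (hd b (Or.inr (Or.inl rfl)))) (hd c (Or.inr (Or.inr rfl)))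

/-- The roots of a determinant one cubic, closed under `u ↦ u ^ q` or `u ↦ (u ^ q)⁻¹`. -/
theorem fixed_case (hp2 : p ≠ 2) (a : ℕ) {q : ℕ} (hqdef : q = p ^ a) (σ : K →+* K) (hσ : ∀ x, σ x = x ^ q)
    (k : ↥(Lie.G2 K)) {r₁ r₂ r₃ t s : K} (hprod : r₁ * r₂ * r₃ = 1) (hsum : r₁ + r₂ + r₃ = t)
    (hsum2 : r₁ * r₂ + r₁ * r₃ + r₂ * r₃ = s)
    (hpow : ∀ M : ℕ, (X - C r₁) * (X - C r₂) * (X - C r₃) ∣ X ^ M - 1 → k ^ M = 1)
    (hts : (t ^ q = t ∧ s ^ q = s) ∨ (t ^ q = s ∧ s ^ q = t)) : ∃ n ∈ fiveSet p a, k ^ n = 1 := by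
  have hq2 : p ^ (2 * a) = q * q := by rw [hqdef, two_mul, pow_add]
  have hq1 : 1 ≤ q := hqdef ▸ Nat.one_le_pow a p hp.out.pos
  have hqa : p ^ a = q := hqdef.symm
  have hne : ∀ x, x = r₁ ∨ x = r₂ ∨ x = r₃ → x ≠ 0 := by
    rintro x (rfl | rfl | rfl) h0 <;> simp [h0] at hprod
  have hev : ∀ u, (u - r₁) * (u - r₂) * (u - r₃) = u ^ 3 - t * u ^ 2 + s * u - 1 := fun u => by
    rw [← hsum, ← hsum2, ← hprod]; ring
  have hmem : ∀ u, u ^ 3 - t * u ^ 2 + s * u - 1 = 0 → u = r₁ ∨ u = r₂ ∨ u = r₃ := fun u hu => by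
    rw [← hev, mul_eq_zero, mul_eq_zero, sub_eq_zero, sub_eq_zero, sub_eq_zero] at hu
    tauto
  have hroot : ∀ u, u = r₁ ∨ u = r₂ ∨ u = r₃ → u ^ 3 - t * u ^ 2 + s * u - 1 = 0 := fun u hu => by
    rw [← hev]; rcases hu with rfl | rfl | rfl <;> ring
  -- a repeated root
  have rep : ∀ (φ : K → K), Function.Injective φ → (∀ u v, φ (u * v) = φ u * φ v) → φ 1 = 1 →
      (∀ u, u = r₁ ∨ u = r₂ ∨ u = r₃ → φ u = r₁ ∨ φ u = r₂ ∨ φ u = r₃) → ∀ u v : K,
      (∀ w, (w = r₁ ∨ w = r₂ ∨ w = r₃) ↔ (w = u ∨ w = v)) → u * u * v = 1 → u ≠ v → φ u = u ∧ φ v = v := by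
    intro φ hinj hmul hone hcl u v hset hp huv
    have hu := (hset _).1 (hcl u ((hset u).2 (Or.inl rfl)))
    have hv := (hset _).1 (hcl v ((hset v).2 (Or.inr rfl)))
    rcases hu with hu | hu
    · exact ⟨hu, hv.resolve_left fun e => huv (hinj (hu.trans e.symm))⟩
    · have hv' : φ v = u := hv.resolve_right fun e => huv (hinj (hu.trans e.symm))
      have h1 := congrArg φ hp
      rw [hmul, hmul, hu, hv', hone] at h1
      refine absurd ?_ huv
      have hu0 : u ≠ 0 := by rintro rfl; simp at hp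
      have hv0 : v ≠ 0 := by rintro rfl; simp at hp
      have : u * v * u = u * v * v := by linear_combination hp - h1
      exact mul_left_cancel₀ (mul_ne_zero hu0 hv0) this
  obtain ⟨φ, hinj, hmul, hone, hcl, hfix, hcyc⟩ : ∃ φ : K → K, Function.Injective φ ∧
      (∀ u v, φ (u * v) = φ u * φ v) ∧ φ 1 = 1 ∧
      (∀ u, u = r₁ ∨ u = r₂ ∨ u = r₃ → φ u = r₁ ∨ φ u = r₂ ∨ φ u = r₃) ∧
      (∃ n ∈ fiveSet p a, ∃ m, n = p * m ∧ ∀ u, u ≠ 0 → φ u = u → u ^ m = 1) ∧
      (∃ n ∈ fiveSet p a, ∀ u, u ≠ 0 → u * φ u * φ (φ u) = 1 → u ^ n = 1) ∧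
      (∀ u, φ (φ u) = (u ^ q) ^ q) := by
    rcases hts with ⟨h1, h2'⟩ | ⟨h1, h2'⟩
    · refine ⟨σ, σ.injective, map_mul σ, map_one σ, fun u hu => hmem _ ?_,
        ⟨_, Or.inr (Or.inl (by rw [hqa])), q - 1, rfl, fun u hu0 hu => ?_⟩,
        ⟨_, Or.inr (Or.inr (Or.inr (Or.inl rfl))), fun u hu0 hu => ?_⟩, fun u => by rw [hσ, hσ]⟩
      · have := congrArg σ (hroot u hu)
        simp only [map_sub, map_add, map_mul, map_pow, map_one, map_zero] at this
        rwa [hσ t, hσ s, h1, h2'] at this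
      · refine pow_eq_one_of_mul (k := 1) ?_ hu0
        rw [Nat.sub_add_cancel hq1, pow_one, ← hσ]; exact hu
      · rw [hσ, hσ] at hu
        rw [hq2, hqa, ← hu, ← pow_mul]; ring
    · refine ⟨fun u => (σ u)⁻¹, fun u v e => σ.injective (inv_injective e),
        fun u v => by simp [mul_inv, mul_comm], by simp, fun u hu => hmem _ ?_,
        ⟨_, Or.inl (by rw [hqa]), q + 1, rfl, fun u hu0 hu => ?_⟩,
        ⟨_, Or.inr (Or.inr (Or.inr (Or.inr rfl))), fun u hu0 hu => ?_⟩, fun u => by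
          simp only [map_inv₀, inv_inv]; rw [hσ, hσ]⟩
      · have := congrArg σ (hroot u hu)
        simp only [map_sub, map_add, map_mul, map_pow, map_one, map_zero] at this
        rw [hσ t, hσ s, h1, h2'] at this
        have hu' : σ u ≠ 0 := by simpa using hne u hu
        have hw : σ u * (σ u)⁻¹ = 1 := mul_inv_cancel₀ hu'
        beta_reduce
        generalize (σ u)⁻¹ = w at hw ⊢
        linear_combination -(w ^ 3) * this +
          (((σ u * w) ^ 2 + σ u * w + 1) - s * w * (σ u * w + 1) + t * w ^ 2) * hw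
      · have hu' : (σ u)⁻¹ = u := hu
        rw [pow_succ, ← hσ]
        nth_rewrite 2 [← hu']
        exact mul_inv_cancel₀ (by simpa using hu0)
      · simp only [map_inv₀, inv_inv] at hu
        rw [hσ (σ u), hσ u] at hu
        rw [hq2, hqa]
        refine pow_eq_one_of_mul (k := q) ?_ hu0
        have hq' : q ≤ q * q := Nat.le_mul_self q
        rw [show q * q - q + 1 + q = q * q + 1 by omega]
        rw [mul_right_comm, ← div_eq_mul_inv, div_eq_iff (pow_ne_zero q hu0), one_mul, ← pow_mul] at hu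
        rw [pow_succ, mul_comm, hu]
  obtain ⟨n₂, hn₂, m, hm, hfix⟩ := hfix
  obtain ⟨⟨n₃, hn₃, hcyc⟩, hsq⟩ := hcyc
  -- repeated roots
  have two : ∀ u v : K, (∀ w, (w = r₁ ∨ w = r₂ ∨ w = r₃) ↔ (w = u ∨ w = v)) → u * u * v = 1 → u ≠ v →
      u ^ m = 1 ∧ v ^ m = 1 := fun u v hset hp huv => by
    obtain ⟨e1, e2⟩ := rep φ hinj hmul hone hcl u v hset hp huv
    exact ⟨hfix u (hne u ((hset u).2 (Or.inl rfl))) e1, hfix v (hne v ((hset v).2 (Or.inr rfl))) e2⟩
  by_cases hrep : r₁ = r₂ ∨ r₁ = r₃ ∨ r₂ = r₃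
  · have hall : ∀ x, x = r₁ ∨ x = r₂ ∨ x = r₃ → x ^ m = 1 := by
      by_cases hal : r₁ = r₂ ∧ r₁ = r₃
      · intro x hx
        obtain rfl : x = r₁ := by rcases hx with h | h | h <;> rw [h] <;> simp [← hal.1, ← hal.2]
        refine hfix x (hne x (Or.inl rfl)) ?_
        rcases hcl x (Or.inl rfl) with h | h | h <;> rw [h] <;> simp [← hal.1, ← hal.2]
      · rcases hrep with h | h | h
        · obtain ⟨e1, e2⟩ := two r₁ r₃ (fun w => by rw [← h]; tauto) (by rw [← h] at hprod; exact hprod)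
            (fun e => hal ⟨h, e⟩)
          rintro x (rfl | rfl | rfl)
          exacts [e1, h ▸ e1, e2]
        · obtain ⟨e1, e2⟩ := two r₁ r₂ (fun w => by rw [← h]; tauto)
            (by rw [← h] at hprod; linear_combination hprod) (fun e => hal ⟨e, h⟩)
          rintro x (rfl | rfl | rfl)
          exacts [e1, e2, h ▸ e1]
        · obtain ⟨e1, e2⟩ := two r₂ r₁ (fun w => by rw [← h]; tauto)
            (by rw [← h] at hprod; linear_combination hprod) (fun e => hal ⟨e.symm, e.symm.trans h⟩)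
          rintro x (rfl | rfl | rfl)
          exacts [e2, e1, h ▸ e1]
    exact ⟨n₂, hn₂, hpow n₂ (hm ▸ prod_dvd_char hp2 r₁ r₂ r₃ hall)⟩
  push Not at hrep
  obtain ⟨h12, h13, h23⟩ := hrep
  -- distinct roots
  have c3 : ∀ u, (u = r₁ ∨ u = r₂ ∨ u = r₃) → u * φ u * φ (φ u) = 1 → u ^ n₃ = 1 :=
    fun u hu => hcyc u (hne u hu)
  rcases perm_three φ hinj h12 h13 h23 hcl with ⟨p1, p2, p3⟩ | ⟨p1, p2, p3⟩ | ⟨p1, p2, p3⟩
  · refine ⟨p ^ (2 * a) - 1, Or.inr (Or.inr (Or.inl rfl)),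
      (hpow _ (prod_dvd r₁ r₂ r₃ ?_ h12 h13 h23))⟩
    intro u hu
    refine pow_eq_one_of_mul (k := 1) ?_ (hne u hu)
    rw [pow_one, Nat.sub_add_cancel (Nat.one_le_pow _ _ hp.out.pos), hq2, pow_mul, ← hsq]
    rcases hu with rfl | rfl | rfl <;> assumption
  all_goals
    refine ⟨n₃, hn₃, (hpow _ (prod_dvd r₁ r₂ r₃ ?_ h12 h13 h23))⟩
    rintro u (rfl | rfl | rfl) <;> refine c3 _ (by tauto) ?_ <;> 
      simp only [p1, p2, p3] <;> linear_combination hprod

end cubic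

end Cfsg.Agent.H48.G2Spec
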