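import Cfsg.Agent.H62.G2Orders.Base

/-!
# Linear algebra of `G₂` in odd characteristic: idempotents, fixed vectors, nilpotent bounds

The proof of `orb_idem` is that of `Cfsg.Agent.H62.Covering.G2.orb_idem`, which assumes characteristic two.
-/

set_option autoImplicit false

open Matrix hiding swap one
open Cfsg.Lie Polynomial
open Cfsg.Agent.H62.Covering.G2 Cfsg.Agent.H62.G2Orders

namespace Cfsg.Agent.H48.G2Spec

section general

variable {F : Type*} [Field F]

local notation "O" => (Fin 8 → F)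

/-- Idempotents of trace one are conjugate to `E` or `E + 1`. -/
theorem orb_idem (e : O) (ht : e 0 + e 7 = 1) (hn : nrm e = 0) :
    Orb e ![1, 0, 0, 0, 0, 0, 0, 0] ∨ Orb e ![0, 0, 0, 0, 0, 0, 0, 1] := by
  -- first coordinate one
  have key : ∀ x : O, x 0 + x 7 = 1 → nrm x = 0 → (x 4 ≠ 0 ∨ x 5 ≠ 0 ∨ x 6 ≠ 0) →
      Orb x ![0, 0, 0, 0, 0, 0, 0, 1] := by
    intro x ht hn hw
    obtain ⟨a₁, a₂, a₃, ha⟩ : ∃ a₁ a₂ a₃ : F, a₁ * x 4 + a₂ * x 5 + a₃ * x 6 = x 0 - 1 := by
      rcases hw with h | h | h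
      · exact ⟨(x 0 - 1) / x 4, 0, 0, by simp [h]⟩
      · exact ⟨0, (x 0 - 1) / x 5, 0, by simp [h]⟩
      · exact ⟨0, 0, (x 0 - 1) / x 6, by simp [h]⟩
    obtain ⟨y, hy⟩ : ∃ y, y = mat (phi a₁ a₂ a₃) *ᵥ x := ⟨_, rfl⟩
    have hny : nrm y = 0 := by rw [hy, map_nrm, hn]
    have hy0 : y 0 = 1 := by
      rw [hy, phi, mk_mulVec]
      show x 0 - (a₁ * x 4 + a₂ * x 5 + a₃ * x 6) = 1
      rw [ha]; ring
    have hy7 : y 7 = 0 := by
      rw [hy, phi, mk_mulVec]
      show x 7 + (a₁ * x 4 + a₂ * x 5 + a₃ * x 6) = 0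
      rw [ha]; linear_combination ht
    refine Orb.step _ hy.symm ?_
    have hd : y 1 * y 4 + y 2 * y 5 + y 3 * y 6 = 0 := by
      simp only [nrm, hy0, hy7] at hny
      linear_combination -hny
    refine Orb.step (phi (-y 1) (-y 2) (-y 3)) (x' := ![1, 0, 0, 0, y 4, y 5, y 6, 0]) ?_ ?_
    · rw [phi, mk_mulVec]
      funext i
      fin_cases i <;> simp [phiMap, hy0, hy7]
      all_goals first
        | ring1
        | linear_combination hd
        | linear_combination -hd
        | linear_combination (y 1) * hd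
        | linear_combination (-y 1) * hd
        | linear_combination (y 2) * hd
        | linear_combination (-y 2) * hd
        | linear_combination (y 3) * hd
        | linear_combination (-y 3) * hd
    refine Orb.step swap (x' := ![0, -y 4, -y 5, -y 6, 0, 0, 0, 1]) ?_ ?_
    · rw [swap, mk_mulVec]
      funext i
      fin_cases i <;> simp [swapMap]
    refine Orb.step (phi (-y 4) (-y 5) (-y 6)) ?_ (Orb.refl _)
    rw [phi, mk_mulVec]
    funext i
    fin_cases i <;> simp [phiMap] <;> ring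
  by_cases hw : e 4 ≠ 0 ∨ e 5 ≠ 0 ∨ e 6 ≠ 0
  · exact Or.inr (key e ht hn hw)
  push Not at hw
  obtain ⟨h4, h5, h6⟩ := hw
  by_cases hv : e 1 ≠ 0 ∨ e 2 ≠ 0 ∨ e 3 ≠ 0
  · refine Or.inr (Orb.step swap rfl (key _ ?_ (by rw [map_nrm, hn]) ?_))
    · rw [swap, mk_mulVec]
      show e 7 + e 0 = 1
      rw [add_comm]; exact ht
    · rw [swap, mk_mulVec]
      show -e 1 ≠ 0 ∨ -e 2 ≠ 0 ∨ -e 3 ≠ 0
      simpa using hv
  push Not at hv
  obtain ⟨h1, h3, h3'⟩ := hv
  simp only [nrm, h1, h3, h3', h4, h5, h6, mul_zero, add_zero, sub_zero] at hn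
  rcases mul_eq_zero.1 hn with h | h
  · refine Or.inr (Orb.step 1 ?_ (Orb.refl _))
    rw [show mat (1 : ↥(Lie.G2 F)) = 1 from rfl, one_mulVec]
    funext i
    fin_cases i <;> simp_all
  · refine Or.inl (Orb.step 1 ?_ (Orb.refl _))
    rw [show mat (1 : ↥(Lie.G2 F)) = 1 from rfl, one_mulVec]
    funext i
    fin_cases i <;> simp_all

theorem trace_map (g : ↥(Lie.G2 F)) (x : O) : (mat g *ᵥ x) 0 + (mat g *ᵥ x) 7 = x 0 + x 7 := by
  have h := map_nrm g (x + (1 : F) • one)
  rw [mulVec_add, one_smul, map_one'] at h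
  have e := nrm_add_one x 1
  have e' := nrm_add_one (mat g *ᵥ x) 1
  rw [one_smul] at e e'
  linear_combination e - e' + h - map_nrm g x

theorem pol_map (g : ↥(Lie.G2 F)) (x y : O) : pol (mat g *ᵥ x) (mat g *ᵥ y) = pol x y := by
  have h := nrm_add (mat g *ᵥ x) (mat g *ᵥ y)
  rw [← mulVec_add, map_nrm, map_nrm, map_nrm, nrm_add x y] at h
  linear_combination -h

theorem mat_pow (g : ↥(Lie.G2 F)) (n : ℕ) : mat (g ^ n) = mat g ^ n := by
  induction n with
  | zero => rfl
  | succ n ih => rw [pow_succ, pow_succ, mat_mul, ih]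

theorem mat_injective : Function.Injective (fun g : ↥(Lie.G2 F) => mat g) :=
  fun _ _ h => Subtype.ext (Units.ext h)

theorem fix_pow' {k : ↥(Lie.G2 F)} {v : O} (h : mat k *ᵥ v = v) (n : ℕ) : mat (k ^ n) *ᵥ v = v := by
  induction n with
  | zero => exact one_mulVec v
  | succ n ih => rw [pow_succ, mat_mul, ← mulVec_mulVec, h, ih]

/-- A trace-zero vector fixed by an element of determinant one. -/
theorem exists_fixed (h2 : (2 : F) ≠ 0) (g : ↥(Lie.G2 F)) (hdet : (mat g).det = 1) :
    ∃ v : O, v ≠ 0 ∧ v 0 + v 7 = 0 ∧ mat g *ᵥ v = v := by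
  classical
  let T : O := ![1, 0, 0, 0, 0, 0, 0, 1]
  let R : Matrix (Fin 8) (Fin 8) F := 1 + (replicateCol Unit (-one) : Matrix (Fin 8) Unit F) * (replicateRow Unit T : Matrix Unit (Fin 8) F)
  have hR : ∀ x : O, R *ᵥ x = x - (x 0 + x 7) • one := fun x => by
    rw [show R = 1 + (replicateCol Unit (-one) : Matrix (Fin 8) Unit F) * (replicateRow Unit T : Matrix Unit (Fin 8) F) from rfl, add_mulVec, one_mulVec, ← mulVec_mulVec]
    funext i
    fin_cases i <;>
      simp [T, one, replicateCol, replicateRow, mulVec, dotProduct, Fin.sum_univ_eight, Matrix.mul_apply] <;> ring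
  have hRdet : R.det = -1 := by
    rw [show R = 1 + (replicateCol Unit (-one) : Matrix (Fin 8) Unit F) * (replicateRow Unit T : Matrix Unit (Fin 8) F) from rfl,
      det_one_add_replicateCol_mul_replicateRow]
    simp [T, one, dotProduct, Fin.sum_univ_eight]
  set M : Matrix (Fin 8) (Fin 8) F := mat g * R with hMdef
  have hM : ∀ x : O, M *ᵥ x = mat g *ᵥ x - (x 0 + x 7) • one := fun x => by
    rw [hMdef, ← mulVec_mulVec, hR, mulVec_sub, mulVec_smul, map_one']
  have hMdet : M.det = -1 := by rw [hMdef, det_mul, hdet, hRdet, one_mul]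
  have hMn : ∀ x : O, nrm (M *ᵥ x) = nrm x := fun x => by
    rw [hM, sub_eq_add_neg, ← neg_smul, nrm_add_one, map_nrm, trace_map]
    ring
  have hMp : ∀ x y : O, pol (M *ᵥ x) (M *ᵥ y) = pol x y := fun x y => by
    have h := nrm_add (M *ᵥ x) (M *ᵥ y)
    rw [← mulVec_add, hMn, hMn, hMn, nrm_add x y] at h
    linear_combination -h
  let B : Matrix (Fin 8) (Fin 8) F := mat swap
  have hB : B * B = 1 := by
    refine ext_of_mulVec_single fun i => ?_
    rw [← mulVec_mulVec, one_mulVec]
    funext j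
    simp only [B, swap, mk_mulVec]
    fin_cases j <;> simp [swapMap]
  have hpol : ∀ x y : O, pol x y = x ⬝ᵥ (B *ᵥ y) := fun x y => by
    simp only [B, swap, mk_mulVec, dotProduct, Fin.sum_univ_eight]
    simp [swapMap, pol]
    ring
  have hMB : Mᵀ * B * M = B := by
    refine ext_of_mulVec_single fun j => funext fun i => ?_
    have h := hMp (Pi.single i 1) (Pi.single j 1)
    rw [hpol, hpol, ← vecMul_transpose M (Pi.single i 1), ← dotProduct_mulVec, mulVec_mulVec,
      mulVec_mulVec, ← Matrix.mul_assoc] at h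
    simpa [Matrix.mul_assoc, hMdef] using h
  have key : (M - 1)ᵀ * B * M = -(B * (M - 1)) := by
    rw [transpose_sub, transpose_one, Matrix.sub_mul, Matrix.sub_mul, hMB, Matrix.one_mul,
      Matrix.mul_sub, Matrix.mul_one, neg_sub]
  have hBd : B.det ≠ 0 := fun h => by
    have := congrArg Matrix.det hB
    rw [det_mul, h, mul_zero, det_one] at this
    exact zero_ne_one this
  have hD : (M - 1).det = 0 := by
    have h := congrArg Matrix.det key
    rw [det_mul, det_mul, det_transpose, hMdet, det_neg, det_mul, Fintype.card_fin] at h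
    have : 2 * B.det * (M - 1).det = 0 := by linear_combination -h
    exact (mul_eq_zero.1 this).resolve_left (mul_ne_zero h2 hBd)
  obtain ⟨v, hv0, hv⟩ := exists_mulVec_eq_zero_iff.2 hD
  rw [sub_mulVec, one_mulVec, sub_eq_zero, hM] at hv
  have ht : v 0 + v 7 = 0 := by
    have h0 := congrArg (fun x : O => x 0 + x 7) hv
    simp [one] at h0
    have := trace_map g v
    have : (2 : F) * (v 0 + v 7) = 0 := by linear_combination this - h0
    exact (mul_eq_zero.1 this).resolve_left h2
  rw [ht, zero_smul, sub_zero] at hv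
  exact ⟨v, hv0, ht, hv⟩

/-- An element of order prime to the characteristic fixing a null vector fixes a non-null one. -/
theorem exists_nonnull (h2 : (2 : F) ≠ 0) (s : ↥(Lie.G2 F)) {m : ℕ} (hm : (m : F) ≠ 0) (hs : s ^ m = 1)
    {v₀ : O} (hv : v₀ ≠ 0) (ht : v₀ 0 + v₀ 7 = 0) (hn : nrm v₀ = 0) (hfix : mat s *ᵥ v₀ = v₀) :
    ∃ v : O, v 0 + v 7 = 0 ∧ nrm v ≠ 0 ∧ mat s *ᵥ v = v := by
  classical
  obtain ⟨x, hxt, hxp⟩ : ∃ x : O, x 0 + x 7 = 0 ∧ pol v₀ x ≠ 0 := by
    by_contra h
    push Not at h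
    refine hv (funext fun i => ?_)
    have e1 := h (Pi.single 1 1) (by simp)
    have e2 := h (Pi.single 2 1) (by simp)
    have e3 := h (Pi.single 3 1) (by simp)
    have e4 := h (Pi.single 4 1) (by simp)
    have e5 := h (Pi.single 5 1) (by simp)
    have e6 := h (Pi.single 6 1) (by simp)
    have e0 := h ![1, 0, 0, 0, 0, 0, 0, -1] (by simp)
    simp [pol] at e0 e1 e2 e3 e4 e5 e6
    have a0 : v₀ 0 = 0 := by
      have : (2 : F) * v₀ 0 = 0 := by linear_combination ht - e0
      exact (mul_eq_zero.1 this).resolve_left h2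
    have a7 : v₀ 7 = 0 := by linear_combination ht - a0
    fin_cases i <;> simp_all
  set w : O := ∑ j ∈ Finset.range m, mat (s ^ j) *ᵥ x with hw
  have hwfix : mat s *ᵥ w = w := by
    have e : ∀ j, mat s *ᵥ (mat (s ^ j) *ᵥ x) = mat (s ^ (j + 1)) *ᵥ x := fun j => by
      rw [mulVec_mulVec, ← mat_mul, pow_succ']
    rw [hw, mulVec_sum, Finset.sum_congr rfl fun j _ => e j]
    have h1 := Finset.sum_range_succ' (fun j => mat (s ^ j) *ᵥ x) m
    have h3 := Finset.sum_range_succ (fun j => mat (s ^ j) *ᵥ x) m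
    rw [hs] at h3
    rw [h3, pow_zero] at h1
    exact (add_right_cancel h1).symm
  have hwt : w 0 + w 7 = 0 := by
    rw [hw, Finset.sum_apply, Finset.sum_apply, ← Finset.sum_add_distrib]
    exact Finset.sum_eq_zero fun j _ => by rw [trace_map, hxt]
  have hwp : pol v₀ w = m * pol v₀ x := by
    have hadd : ∀ a b : O, pol v₀ (a + b) = pol v₀ a + pol v₀ b := fun a b => by
      simp only [pol, Pi.add_apply]; ring
    have hsum : ∀ k : ℕ, pol v₀ (∑ j ∈ Finset.range k, mat (s ^ j) *ᵥ x) = k * pol v₀ x := by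
      intro k
      induction k with
      | zero => simp [pol]
      | succ k ih =>
        rw [Finset.sum_range_succ, hadd, ih]
        nth_rewrite 2 [← fix_pow' hfix k]
        rw [pol_map]
        push_cast
        ring
    exact hsum m
  by_cases hwn : nrm w = 0
  · refine ⟨v₀ + w, ?_, ?_, ?_⟩
    · simp only [Pi.add_apply]; linear_combination ht + hwt
    · rw [nrm_add, hn, hwn, zero_add, zero_add, hwp]
      exact mul_ne_zero hm hxp
    · rw [mulVec_add, hfix, hwfix]
  · exact ⟨w, hwt, hwn, hwfix⟩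

end general

/-- A nilpotent map vanishes to the power of the dimension on an invariant subspace. -/
theorem pow_eq_zero_on {K V : Type*} [Field K] [AddCommGroup V] [Module K V] [FiniteDimensional K V]
    (f : Module.End K V) {n d : ℕ} (hn : f ^ n = 0) (S : Submodule K V) (hS : ∀ x ∈ S, f x ∈ S)
    {W : Type*} [AddCommGroup W] [Module K W] [FiniteDimensional K W] (hW : Module.finrank K W ≤ d)
    (c : V →ₗ[K] W) (hc : ∀ x ∈ S, c x = 0 → x = 0) {x : V} (hx : x ∈ S) : (f ^ d) x = 0 := by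
  set fS : Module.End K S := f.restrict hS with hfS
  have hp : ∀ (k : ℕ) (y : S), ((fS ^ k) y : V) = (f ^ k) y := by
    intro k
    induction k with
    | zero => intro y; rfl
    | succ k ih => intro y; rw [pow_succ, pow_succ, Module.End.mul_apply, Module.End.mul_apply, ih]; rfl
  have hd : Module.finrank K S ≤ d := by
    refine le_trans (LinearMap.finrank_le_finrank_of_injective (f := c.comp S.subtype) ?_) hW
    rw [injective_iff_map_eq_zero]
    exact fun y hy => Subtype.ext (hc y y.2 hy)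
  have hker : LinearMap.ker (fS ^ max n d) = LinearMap.ker (fS ^ Module.finrank K S) :=
    Module.End.ker_pow_eq_ker_pow_finrank_of_le (le_trans hd (le_max_right n d))
  have h0 : (fS ^ Module.finrank K S) ⟨x, hx⟩ = 0 := by
    rw [← LinearMap.mem_ker, ← hker, LinearMap.mem_ker]
    refine Subtype.ext ?_
    rw [hp, ← Nat.sub_add_cancel (le_max_left n d), pow_add, hn, mul_zero]
    rfl
  have h1 := hp (Module.finrank K S) ⟨x, hx⟩
  rw [h0] at h1
  rw [← Nat.sub_add_cancel hd, pow_add, Module.End.mul_apply, ← h1]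
  exact map_zero _

section unipotent

variable {F : Type*} [Field F] {p : ℕ} [hp : Fact p.Prime] [CharP F p]

theorem mat_sub_one_pow (g : ↥(Lie.G2 F)) (i : ℕ) : (mat g - 1) ^ p ^ i = mat (g ^ p ^ i) - 1 := by
  rw [sub_pow_char_pow_of_commute _ _ (Commute.one_right _), one_pow, mat_pow]

theorem pow_eq_one_of_nilp (g : ↥(Lie.G2 F)) {d i : ℕ} (hd : d ≤ p ^ i)
    (h : ∀ x, ((mulVecLin (mat g - 1)) ^ d) x = 0) : g ^ p ^ i = 1 := by
  have h1 : (mat g - 1) ^ d = 0 := by
    refine ext_of_mulVec_single fun j => ?_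
    have := h (Pi.single j 1)
    rw [← toLin'_apply', ← toLin'_pow, toLin'_apply] at this
    rw [this, zero_mulVec]
  refine mat_injective ?_
  obtain ⟨k, hk⟩ := Nat.exists_eq_add_of_le hd
  have h0 : (mat g - 1) ^ p ^ i = 0 := by rw [hk, pow_add, h1, zero_mul]
  exact sub_eq_zero.1 ((mat_sub_one_pow (p := p) g i).symm.trans h0)

/-- Unipotent elements. -/
theorem unipotent_case (hp2 : p ≠ 2) (g : ↥(Lie.G2 F)) {i : ℕ} (hg : g ^ p ^ i = 1) :
    g ^ p ^ 2 = 1 ∧ (7 ≤ p → g ^ p = 1) := by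
  classical
  have h2 : (2 : F) ≠ 0 := fun h => hp2 ((Nat.prime_dvd_prime_iff_eq hp.out Nat.prime_two).1
    ((CharP.cast_eq_zero_iff F p 2).1 (by exact_mod_cast h)))
  set f : Module.End F (Fin 8 → F) := mulVecLin (mat g - 1) with hf
  have hf0 : f ^ p ^ i = 0 := by
    rw [hf, ← toLin'_apply', ← toLin'_pow, mat_sub_one_pow, hg]
    show toLin' ((1 : Matrix (Fin 8) (Fin 8) F) - 1) = 0
    rw [sub_self, map_zero]
  let S : Submodule F (Fin 8 → F) :=
    LinearMap.ker (LinearMap.proj (R := F) (φ := fun _ : Fin 8 => F) 0 + LinearMap.proj 7)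
  have hmem : ∀ x, x ∈ S ↔ x 0 + x 7 = 0 := fun x => by simp [S]
  have hfx : ∀ x, f x = mat g *ᵥ x - x := fun x => by rw [hf, mulVecLin_apply, sub_mulVec, one_mulVec]
  have hS : ∀ x ∈ S, f x ∈ S := fun x hx => by
    rw [hmem] at hx ⊢
    rw [hfx, Pi.sub_apply, Pi.sub_apply]
    linear_combination trace_map g x
  have h7 : ∀ x, (f ^ 7) x = 0 := by
    intro x
    have hx : x - ((x 0 + x 7) / 2) • one ∈ S := by
      rw [hmem]; simp [one]; field_simp; ring
    have h := pow_eq_zero_on f hf0 S hS (W := Fin 7 → F) (d := 7) (by simp)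
      (LinearMap.funLeft F F (Fin.castSucc : Fin 7 → Fin 8)) (fun y hy hc => by
        rw [hmem] at hy
        have e := fun j => congrFun hc j
        simp only [LinearMap.funLeft_apply, Pi.zero_apply] at e
        funext j
        refine Fin.lastCases ?_ (fun j => e j) j
        have := e 0
        show y 7 = 0
        rw [show (Fin.castSucc (0 : Fin 7) : Fin 8) = 0 from rfl] at this
        linear_combination hy - this) hx
    have hone : f one = 0 := by rw [hfx, map_one', sub_self]
    rw [map_sub, map_smul, pow_succ _ 6, Module.End.mul_apply, Module.End.mul_apply, hone, map_zero, smul_zero,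
      sub_zero] at h
    rw [pow_succ, Module.End.mul_apply, h]
  have h3 : 3 ≤ p := by have := hp.out.two_le; omega
  refine ⟨pow_eq_one_of_nilp g (le_trans (by norm_num) (Nat.pow_le_pow_left h3 2)) h7, fun h => ?_⟩
  have := pow_eq_one_of_nilp g (i := 1) (by rw [pow_one]; exact h) h7
  rwa [pow_one] at this

end unipotent

end Cfsg.Agent.H48.G2Spec
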