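import Cfsg.Agent.H48.G2Spec.TorusOrder

/-!
# An element of order `q² - q + 1` of `G₂(q)`
-/

set_option autoImplicit false

namespace Cfsg.Agent.H48.G2Spec

open Cfsg.Lie Cfsg.Agent.H46 Cfsg.Agent.H67.Chev

/-- The table of the Coxeter torus. -/
def torusCox : TorusData chevG2 where
  L := ([0, 1] : List (Fin 2))
  α₀ := 7
  h := 6
  c := [1, -1]
  B := [[0, 1], [-1, 2]]

theorem torusCox_table : ∀ s : Fin chevG2.nroots,
    torusCox.eV (torusCox.act s.val) =
      [-(torusCox.eC s.val 1), torusCox.eC s.val 0 + torusCox.eC s.val 1] := by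
  decide +kernel

theorem torusCox_base : torusCox.α₀ < chevG2.nroots ∧ torusCox.eV torusCox.α₀ = [1, 0] := by decide +kernel

/-- An element of order `q² - q + 1`. -/
theorem exists_orderOf_cox {F : Type*} [Field F] [Fintype F] (q : ℕ) (hF : Fintype.card F = q) :
    ∃ g : ↥(chevG2.group F), orderOf g = q ^ 2 - q + 1 := by
  have hle : q ≤ q ^ 2 := Nat.le_self_pow (by omega) q
  have hex : ∀ (x : ℤ) s, expo torusCox x s = torusCox.eC s 0 + torusCox.eC s 1 * x := by
    intro x s
    show evalL [torusCox.eC s 0, torusCox.eC s 1] x = _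
    simp [evalL]; ring
  refine exists_orderOf_torus (G := goodG2) (T := torusCox) rfl H65.unimod_G2 q hF _ (by omega) torusCox_base.1 ?_
    (fun s hs => ?_) ?_
  · rw [expo, torusCox_base.2]; simp [evalL]
  · refine ⟨-(torusCox.eC s 1), ?_⟩
    have h := torusCox_table ⟨s, hs⟩
    rw [expo, show torusCox.eV (torusCox.act s) = _ from h, hex]
    simp [evalL]
    push_cast [Nat.cast_sub hle]
    ring
  · have hq : 1 ≤ q := hF ▸ Fintype.card_pos
    rw [show q ^ 2 - q + 1 = 1 + (q - 1) * q by
      rw [pow_two, Nat.sub_mul, one_mul, add_comm]]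
    exact Nat.coprime_add_mul_right_left 1 q (q - 1) |>.2 (Nat.coprime_one_left q)

end Cfsg.Agent.H48.G2Spec
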