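import Cfsg.Agent.H48.G2Spec.Upper
import Cfsg.Agent.H48.G2Spec.Torus
import Cfsg.Agent.H23.G2Torus.Singer

/-!
# The listed numbers are element orders of `G₂(q)`, `q` odd
-/

set_option autoImplicit false

open Matrix hiding swap one
open Cfsg.Lie
open Cfsg.Agent.H93.G2Quat

namespace Cfsg.Agent.H48.G2Spec

section pairs

variable {F : Type*} [Field F] [Fintype F] {p : ℕ} [hp : Fact p.Prime] [CharP F p]

theorem orderOf_of_iff {G : Type*} [Group G] (g : G) (N : ℕ) (h : ∀ k : ℕ, g ^ k = 1 ↔ N ∣ k) :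
    orderOf g = N :=
  Nat.dvd_antisymm (orderOf_dvd_of_pow_eq_one ((h N).2 dvd_rfl)) ((h _).1 (pow_orderOf_eq_one g))

theorem chi_pow_iff {χ : ↥(pairs F) →* ↥(chevG2.group F)} (hker : χ.ker = (phi F).ker) (w : ↥(pairs F)) (k : ℕ) :
    χ w ^ k = 1 ↔ ((w : GL (Fin 2) F × GL (Fin 2) F).1 ^ k = (w : GL (Fin 2) F × GL (Fin 2) F).2 ^ k ∧
      ∀ M, Commute (((w : GL (Fin 2) F × GL (Fin 2) F).1 ^ k : GL (Fin 2) F) : Matrix (Fin 2) (Fin 2) F) M) := by
  rw [← map_pow, ← MonoidHom.mem_ker, hker, MonoidHom.mem_ker]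
  exact ⟨fun h => phi_ker h, fun h => phi_eq_one h.1 h.2⟩

/-- An element of order `p N` from an element of order `N` of `SL₂`, `p ∤ N`. -/
theorem exists_orderOf_mul (hodd : Odd (Fintype.card F)) {N : ℕ} (hco : Nat.Coprime p N) (Q : GL (Fin 2) F)
    (hdet : Matrix.det (Q : Matrix (Fin 2) (Fin 2) F) = 1) (hQ : orderOf Q = N) :
    ∃ g : ↥(chevG2.group F), orderOf g = p * N := by
  obtain ⟨χ, -, hker, -⟩ := H93.G2Inv.exists_chi (F := F) hodd
  let P : GL (Fin 2) F := Matrix.GeneralLinearGroup.mkOfDetNeZero !![1, 1; 0, 1] (by simp [det_fin_two])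
  have hP : ∀ k : ℕ, ((P ^ k : GL (Fin 2) F) : Matrix (Fin 2) (Fin 2) F) = !![1, (k : F); 0, 1] := by
    intro k
    induction k with
    | zero => simp [one_fin_two]
    | succ k ih =>
      rw [pow_succ, Units.val_mul, ih]
      ext i j
      fin_cases i <;> fin_cases j <;>
        simp [P, Matrix.GeneralLinearGroup.mkOfDetNeZero, Matrix.mul_apply, Fin.sum_univ_two, add_comm]
  let w : ↥(pairs F) := ⟨(P, Q), mem_pairs.2 (by
    rw [hdet]; simp [P, Matrix.GeneralLinearGroup.mkOfDetNeZero, det_fin_two])⟩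
  refine ⟨χ w, orderOf_of_iff _ _ fun k => ?_⟩
  rw [chi_pow_iff hker]
  show (P ^ k = Q ^ k ∧ ∀ M, Commute ((P ^ k : GL (Fin 2) F) : Matrix (Fin 2) (Fin 2) F) M) ↔ _
  have hp1 : ∀ k : ℕ, p ∣ k → P ^ k = 1 := fun k hk => by
    refine Units.ext ?_
    rw [hP, (CharP.cast_eq_zero_iff F p k).2 hk, Units.val_one, one_fin_two]
  constructor
  · rintro ⟨h1, h2⟩
    have hpk : p ∣ k := by
      refine (CharP.cast_eq_zero_iff F p k).1 ?_
      have h := congrFun (congrFun (h2 !![0, 0; 0, 1]).eq 0) 1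
      rw [hP] at h
      simpa [Matrix.mul_apply, Fin.sum_univ_two] using h
    refine hco.mul_dvd_of_dvd_of_dvd hpk ?_
    rw [← hQ, orderOf_dvd_iff_pow_eq_one, ← h1, hp1 k hpk]
  · intro hk
    rw [hp1 k (dvd_of_mul_right_dvd hk),
      orderOf_dvd_iff_pow_eq_one.1 (hQ.symm ▸ dvd_of_mul_left_dvd hk : orderOf Q ∣ k)]
    exact ⟨rfl, fun M => by rw [Units.val_one]; exact Commute.one_left M⟩

/-- An element of order `q ^ 2 - 1` of `GL₂(q)`. -/
theorem exists_gl2_singer (q : ℕ) (hq : Fintype.card F = q) :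
    ∃ P : GL (Fin 2) F, orderOf P = q ^ 2 - 1 := by
  classical
  obtain ⟨p, _⟩ := CharP.exists F
  haveI : Fact p.Prime := ⟨CharP.char_is_prime F p⟩
  let K := FiniteField.Extension F p 2
  haveI : Fintype K := Fintype.ofFinite K
  have hK : Nat.card Kˣ = q ^ 2 - 1 := by
    rw [Nat.card_units, FiniteField.natCard_extension, Nat.card_eq_fintype_card, hq]
  obtain ⟨x, hx⟩ := IsCyclic.exists_generator (α := Kˣ)
  let b : Module.Basis (Fin 2) F K := Module.finBasisOfFinrankEq F K (FiniteField.finrank_extension F p 2)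
  let f : Kˣ →* GL (Fin 2) F := Units.map (Algebra.leftMulMatrix b).toRingHom.toMonoidHom
  have hf : Function.Injective f := Units.map_injective (Algebra.leftMulMatrix_injective b)
  exact ⟨f x, by rw [orderOf_injective f hf, orderOf_eq_card_of_forall_mem_zpowers hx, hK]⟩

/-- An element of order `q ^ 2 - 1`. -/
theorem exists_orderOf_sq_sub_one (hodd : Odd (Fintype.card F)) (q : ℕ) (hq : Fintype.card F = q) :
    ∃ g : ↥(chevG2.group F), orderOf g = q ^ 2 - 1 := by
  obtain ⟨χ, -, hker, -⟩ := H93.G2Inv.exists_chi (F := F) hodd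
  obtain ⟨P, hP⟩ := exists_gl2_singer q hq
  set d : F := Matrix.det (P : Matrix (Fin 2) (Fin 2) F) with hd
  have hd0 : d ≠ 0 := P.isUnit.map Matrix.detMonoidHom |>.ne_zero
  let Q : GL (Fin 2) F := Matrix.GeneralLinearGroup.mkOfDetNeZero !![d, 0; 0, 1] (by simpa [det_fin_two] using hd0)
  have hQ : ∀ k : ℕ, ((Q ^ k : GL (Fin 2) F) : Matrix (Fin 2) (Fin 2) F) = !![d ^ k, 0; 0, 1] := by
    intro k
    induction k with
    | zero => simp [one_fin_two]
    | succ k ih =>
      rw [pow_succ, Units.val_mul, ih]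
      ext i j
      fin_cases i <;> fin_cases j <;>
        simp [Q, Matrix.GeneralLinearGroup.mkOfDetNeZero, Matrix.mul_apply, Fin.sum_univ_two, pow_succ]
  let w : ↥(pairs F) := ⟨(P, Q), mem_pairs.2 (by
    show Matrix.det (P : Matrix (Fin 2) (Fin 2) F) = _
    simp [Q, Matrix.GeneralLinearGroup.mkOfDetNeZero, det_fin_two, hd])⟩
  refine ⟨χ w, orderOf_of_iff _ _ fun k => ?_⟩
  rw [chi_pow_iff hker]
  show (P ^ k = Q ^ k ∧ ∀ M, Commute ((P ^ k : GL (Fin 2) F) : Matrix (Fin 2) (Fin 2) F) M) ↔ _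
  constructor
  · rintro ⟨h1, h2⟩
    have h := congrFun (congrFun (h2 !![0, 1; 0, 0]).eq 0) 1
    rw [h1, hQ] at h
    have hdk : d ^ k = 1 := by simpa [Matrix.mul_apply, Fin.sum_univ_two] using h
    rw [← hP, orderOf_dvd_iff_pow_eq_one]
    refine Units.ext ?_
    rw [h1, hQ, hdk, Units.val_one, one_fin_two]
  · intro hk
    have hPk : P ^ k = 1 := orderOf_dvd_iff_pow_eq_one.1 (hP.symm ▸ hk)
    have hdk : d ^ k = 1 := by
      have h := congrArg (fun M : GL (Fin 2) F => Matrix.det (M : Matrix (Fin 2) (Fin 2) F)) hPk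
      simpa [det_pow, ← hd] using h
    have hQk : Q ^ k = 1 := Units.ext (by rw [hQ, hdk, Units.val_one, one_fin_two])
    rw [hPk, hQk]
    exact ⟨rfl, fun M => by rw [Units.val_one]; exact Commute.one_left M⟩

/-- Elements of order `q - 1` and `q + 1` of determinant one. -/
theorem exists_sl2 (q : ℕ) (hq : Fintype.card F = q) :
    (∃ Q : GL (Fin 2) F, Matrix.det (Q : Matrix (Fin 2) (Fin 2) F) = 1 ∧ orderOf Q = q - 1) ∧
      ∃ Q : GL (Fin 2) F, Matrix.det (Q : Matrix (Fin 2) (Fin 2) F) = 1 ∧ orderOf Q = q + 1 := by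
  classical
  constructor
  · obtain ⟨x, hx⟩ := IsCyclic.exists_generator (α := Fˣ)
    let Q : GL (Fin 2) F := Matrix.GeneralLinearGroup.mkOfDetNeZero !![(x : F), 0; 0, ((x⁻¹ : Fˣ) : F)]
      (by simp [det_fin_two])
    have hQ : ∀ k : ℕ, ((Q ^ k : GL (Fin 2) F) : Matrix (Fin 2) (Fin 2) F) =
        !![((x ^ k : Fˣ) : F), 0; 0, ((x⁻¹ ^ k : Fˣ) : F)] := by
      intro k
      induction k with
      | zero => simp [one_fin_two]
      | succ k ih =>
        rw [pow_succ, Units.val_mul, ih]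
        ext i j
        fin_cases i <;> fin_cases j <;>
          simp [Q, Matrix.GeneralLinearGroup.mkOfDetNeZero, Matrix.mul_apply, Fin.sum_univ_two, pow_succ]
    refine ⟨Q, by simp [Q, Matrix.GeneralLinearGroup.mkOfDetNeZero, det_fin_two], ?_⟩
    have hx' : orderOf x = q - 1 := by
      rw [orderOf_eq_card_of_forall_mem_zpowers hx, Nat.card_units, Nat.card_eq_fintype_card, hq]
    rw [← hx']
    refine orderOf_of_iff _ _ fun k => ?_
    rw [orderOf_dvd_iff_pow_eq_one]
    constructor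
    · intro h
      have := congrArg (fun M : GL (Fin 2) F => (M : Matrix (Fin 2) (Fin 2) F) 0 0) h
      rw [hQ] at this
      exact Units.ext (by simpa using this)
    · intro h
      refine Units.ext ?_
      rw [hQ, inv_pow, h, inv_one, Units.val_one, Units.val_one, one_fin_two]
  · obtain ⟨P, hP⟩ := exists_gl2_singer q hq
    have hq1 : 2 ≤ q := hq ▸ Fintype.one_lt_card
    refine ⟨P ^ (q - 1), ?_, ?_⟩
    · rw [Units.val_pow_eq_pow_val, det_pow, ← hq]
      exact FiniteField.pow_card_sub_one_eq_one _ (P.isUnit.map Matrix.detMonoidHom).ne_zero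
    · have e : q ^ 2 - 1 = (q + 1) * (q - 1) := by rw [← Nat.sq_sub_sq q 1, one_pow]
      rw [orderOf_pow_of_dvd (by omega) (hP ▸ e ▸ dvd_mul_left _ _), hP, e, Nat.mul_div_cancel _ (by omega)]

end pairs

section unipotent

variable {F : Type*} [Field F] [Fintype F] {p : ℕ} [hp : Fact p.Prime] [CharP F p]

open Cfsg.Agent.H93.G2Bridge Cfsg.Agent.H62.Covering.G2

/-- The regular unipotent element, minus one. -/
def nilMap (x : Fin 8 → F) : Fin 8 → F :=
  ![-x 5 - x 4, -x 5 - x 4 + x 0 - x 7, -x 1, 0, x 5, -x 3, -x 1 + x 2, x 5 + x 4]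

set_option maxHeartbeats 4000000 in
theorem tau_sub_one (x : Fin 8 → F) :
    mat (tau F 7 1 * tau F 6 1) *ᵥ x - x = nilMap x := by
  rw [mat_mul, ← mulVec_mulVec]
  show ((tau F 7 1 : GL (Fin 8) F) : Matrix (Fin 8) (Fin 8) F) *ᵥ
    (((tau F 6 1 : GL (Fin 8) F) : Matrix (Fin 8) (Fin 8) F) *ᵥ x) - x = _
  rw [tau_val (by norm_num : 7 < 12), tau_val (by norm_num : 6 < 12)]
  funext i
  simp only [Pi.sub_apply, xZ, mulVec_eval _ _ _ _ (xS_lt 7 (by norm_num)),
    mulVec_eval _ _ _ _ (xS_lt 6 (by norm_num))]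
  fin_cases i <;>
    simp [nilMap, xS, aS, bS, aTab, bTab, H47.SPoly.one, H47.SPoly.shift_eq, List.range_succ, mulVec_eval,
      Fin.ofNat] <;> ring

/-- An element of order `p ^ 2` when `p` is `3` or `5`. -/
theorem exists_orderOf_prime_sq (h35 : p = 3 ∨ p = 5) (hodd : Odd (Fintype.card F)) :
    ∃ g : ↥(chevG2.group F), orderOf g = p ^ 2 := by
  have h2 : (2 : F) ≠ 0 := H6.two_ne_of_odd rfl hodd
  obtain ⟨ψ, hψ, hτ⟩ := exists_hom F ⟨-1, neg_ne_zero.2 one_ne_zero, fun h => h2 (by linear_combination -h)⟩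
  obtain ⟨a, ha⟩ := hτ 7 (by norm_num) 1
  obtain ⟨b, hb⟩ := hτ 6 (by norm_num) 1
  set T := tau F 7 1 * tau F 6 1 with hT
  have hpow : ∀ (x : Fin 8 → F) (k : ℕ), ((mulVecLin (mat T - 1)) ^ k) x = nilMap^[k] x := by
    intro x k
    induction k with
    | zero => rfl
    | succ k ih =>
      rw [pow_succ', Module.End.mul_apply, ih, Function.iterate_succ_apply', mulVecLin_apply, sub_mulVec,
        one_mulVec, hT, tau_sub_one]
  have h7 : ∀ x, ((mulVecLin (mat T - 1)) ^ 7) x = 0 := fun x => by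
    rw [hpow]
    funext i
    simp only [Function.iterate_succ_apply, Function.iterate_zero_apply]
    fin_cases i <;> simp [nilMap]
  have hsq : T ^ p ^ 2 = 1 := pow_eq_one_of_nilp T (by rcases h35 with rfl | rfl <;> norm_num) h7
  have hne : T ^ p ^ 1 ≠ 1 := by
    intro h
    have h0 : (mat T - 1) ^ p ^ 1 = 0 := by
      rw [mat_sub_one_pow, h]; exact sub_self _
    have e := hpow (Pi.single 3 1) p
    rw [← toLin'_apply', ← toLin'_pow, toLin'_apply] at e
    rw [pow_one] at h0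
    rw [h0, zero_mulVec] at e
    rcases h35 with rfl | rfl
    · have := congrFun e.symm 0
      simp only [Function.iterate_succ_apply, Function.iterate_zero_apply] at this
      simp [nilMap] at this
    · have := congrFun e.symm 2
      simp only [Function.iterate_succ_apply, Function.iterate_zero_apply] at this
      simp [nilMap] at this
      exact h2 (by linear_combination -this)
  refine ⟨a * b, (orderOf_injective ψ hψ _).symm.trans ?_⟩
  rw [map_mul, ha, hb, ← hT]
  exact orderOf_eq_prime_pow hne hsq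

end unipotent

end Cfsg.Agent.H48.G2Spec
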