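import Cfsg.Agent.H48.G2Spec.Cubic

/-!
# A semisimple stabiliser of an idempotent which fixes a null vector
-/

set_option autoImplicit false

open Matrix hiding swap one
open Cfsg.Lie Polynomial
open Cfsg.Agent.H62.Covering.G2 Cfsg.Agent.H62.G2Orders

namespace Cfsg.Agent.H48.G2Spec

variable {K : Type*} [Field K]

local notation "O" => (Fin 8 → K)

/-- The eigenvectors of a simple eigenvalue are determined by one coordinate. -/
theorem exists_coord (M : Matrix (Fin 3) (Fin 3) K) {a b c : K} (h1 : a + b + c = M.trace)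
    (h2 : a * b + a * c + b * c = M.adjugate.trace) (hab : a ≠ b) (hac : a ≠ c) :
    ∃ j : Fin 3, ∀ z : Fin 3 → K, M *ᵥ z = a • z → z j = 0 → z = 0 := by
  classical
  set N : Matrix (Fin 3) (Fin 3) K := M - a • 1 with hN
  have htr : N.adjugate.trace = (b - a) * (c - a) := by
    have e : N.adjugate.trace = M.adjugate.trace - 2 * a * M.trace + 3 * a ^ 2 := by
      rw [hN, adjugate_fin_three, adjugate_fin_three, trace_fin_three, trace_fin_three, trace_fin_three]
      simp
      ring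
    rw [e, ← h1, ← h2]
    ring
  obtain ⟨j, hj⟩ : ∃ j, N.adjugate j j ≠ 0 := by
    by_contra h
    push Not at h
    refine mul_ne_zero (sub_ne_zero.2 hab.symm) (sub_ne_zero.2 hac.symm) (htr.symm.trans ?_)
    exact Finset.sum_eq_zero fun j _ => h j
  refine ⟨j, fun z hz hzj => ?_⟩
  rw [adjugate_apply] at hj
  refine eq_zero_of_mulVec_eq_zero hj (funext fun i => ?_)
  by_cases hij : i = j
  · subst hij
    show (N.updateRow i (Pi.single i 1)) i ⬝ᵥ z = 0
    rw [updateRow_self, single_dotProduct, hzj, mul_zero]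
  · show (N.updateRow j (Pi.single j 1)) i ⬝ᵥ z = 0
    rw [updateRow_ne hij]
    have : N *ᵥ z = 0 := by rw [hN, sub_mulVec, hz, smul_mulVec, one_mulVec, sub_self]
    exact congrFun this i

/-- The coordinates of the first vector part. -/
def eA : Fin 3 → Fin 8 := ![1, 2, 3]

/-- The coordinates of the second vector part. -/
def eB : Fin 3 → Fin 8 := ![4, 5, 6]

theorem apply_fix {k : ↥(Lie.G2 K)} (h : mat k *ᵥ idE = idE) (x : O) :
    (mat k *ᵥ x) 0 = x 0 ∧ (mat k *ᵥ x) 7 = x 7 ∧ (mat k *ᵥ x) ∘ eA = blockA k *ᵥ (x ∘ eA) ∧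
      (mat k *ᵥ x) ∘ eB = blockB k *ᵥ (x ∘ eB) := by
  have z := entries h
  have d := diag_entries h
  refine ⟨?_, ?_, funext fun i => ?_, funext fun i => ?_⟩
  · simp [mulVec, dotProduct, Fin.sum_univ_eight, d.1, z 0 1 (by decide), z 0 2 (by decide), z 0 3 (by decide),
      z 0 4 (by decide), z 0 5 (by decide), z 0 6 (by decide), z 0 7 (by decide)]
  · simp [mulVec, dotProduct, Fin.sum_univ_eight, d.2, z 7 1 (by decide), z 7 2 (by decide), z 7 3 (by decide),
      z 7 4 (by decide), z 7 5 (by decide), z 7 6 (by decide), z 7 0 (by decide)]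
  · simp only [Function.comp_apply, mulVec, dotProduct, Fin.sum_univ_eight, Fin.sum_univ_three]
    fin_cases i
    · simp [eA, blockA, z 1 0 (by decide), z 1 4 (by decide), z 1 5 (by decide), z 1 6 (by decide), z 1 7 (by decide)]
    · simp [eA, blockA, z 2 0 (by decide), z 2 4 (by decide), z 2 5 (by decide), z 2 6 (by decide), z 2 7 (by decide)]
    · simp [eA, blockA, z 3 0 (by decide), z 3 4 (by decide), z 3 5 (by decide), z 3 6 (by decide), z 3 7 (by decide)]
  · simp only [Function.comp_apply, mulVec, dotProduct, Fin.sum_univ_eight, Fin.sum_univ_three]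
    fin_cases i
    · simp [eB, blockB, z 4 0 (by decide), z 4 1 (by decide), z 4 2 (by decide), z 4 3 (by decide), z 4 7 (by decide)]
    · simp [eB, blockB, z 5 0 (by decide), z 5 1 (by decide), z 5 2 (by decide), z 5 3 (by decide), z 5 7 (by decide)]
    · simp [eB, blockB, z 6 0 (by decide), z 6 1 (by decide), z 6 2 (by decide), z 6 3 (by decide), z 6 7 (by decide)]

theorem blockB_data {k : ↥(Lie.G2 K)} (h : mat k *ᵥ idE = idE) :
    (blockB k).det = 1 ∧ (blockB k).trace = (blockA k).adjugate.trace ∧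
      (blockB k).adjugate.trace = (blockA k).trace := by
  have h1 := transpose_mul_blockB h
  have hd : (blockB k).det = 1 := by
    have := congrArg Matrix.det h1
    rwa [det_mul, det_transpose, det_blockA h, one_mul, det_one] at this
  have e : blockB k = ((blockA k).adjugate)ᵀ := by
    have h2 : (blockA k)ᵀ * ((blockA k).adjugate)ᵀ = 1 := by
      rw [← transpose_mul, adjugate_mul, det_blockA h, one_smul, transpose_one]
    have h3 : blockB k * (blockA k)ᵀ = 1 := mul_eq_one_comm.1 h1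
    calc blockB k = blockB k * ((blockA k)ᵀ * ((blockA k).adjugate)ᵀ) := by rw [h2, mul_one]
      _ = ((blockA k).adjugate)ᵀ := by rw [← mul_assoc, h3, one_mul]
  have e' : (blockB k).adjugate = (blockA k)ᵀ := by
    have h3 : blockB k * (blockA k)ᵀ = 1 := mul_eq_one_comm.1 h1
    rw [← mul_one (blockB k).adjugate, ← h3, ← mul_assoc, adjugate_mul, hd, one_smul, one_mul]
  exact ⟨hd, by rw [e, trace_transpose], by rw [e', trace_transpose]⟩

/-- A fixed null vector of trace zero gives the first block the eigenvalue one. -/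
theorem trace_eq_of_fixed (h2 : (2 : K) ≠ 0) {k : ↥(Lie.G2 K)} (h : mat k *ᵥ idE = idE) {w : O} (hw : w ≠ 0)
    (ht : w 0 + w 7 = 0) (hn : nrm w = 0) (hfix : mat k *ᵥ w = w) :
    (blockA k).trace = (blockA k).adjugate.trace := by
  obtain ⟨-, -, hA, hB⟩ := apply_fix h w
  rw [hfix] at hA hB
  obtain ⟨hdB, htB, hsB⟩ := blockB_data h
  have key : ∀ M : Matrix (Fin 3) (Fin 3) K, M.det = 1 → ∀ z : Fin 3 → K, z ≠ 0 → M *ᵥ z = z →
      M.trace = M.adjugate.trace := by
    intro M hM z hz0 hz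
    have hd : (M - 1).det = 0 := exists_mulVec_eq_zero_iff.1 ⟨z, hz0, by rw [sub_mulVec, one_mulVec, hz, sub_self]⟩
    have e : (M - 1).det = M.det - M.adjugate.trace + M.trace - 1 := by
      rw [det_fin_three, det_fin_three, adjugate_fin_three, trace_fin_three, trace_fin_three]
      simp
      ring
    rw [hd, hM] at e
    linear_combination -e
  by_cases hA0 : w ∘ eA = 0
  · by_cases hB0 : w ∘ eB = 0
    · exfalso
      refine hw (funext fun i => ?_)
      have a := congrFun hA0
      have b := congrFun hB0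
      simp [eA, eB, Fin.forall_fin_succ] at a b
      have h00 : w 0 = 0 := by
        simp only [nrm, a, b, show w 7 = -w 0 by linear_combination ht] at hn
        exact mul_self_eq_zero.1 (by linear_combination -hn)
      have h77 : w 7 = 0 := by linear_combination ht - h00
      fin_cases i <;> simp_all
    · have := key _ hdB _ hB0 hB.symm
      rw [htB, hsB] at this
      exact this.symm
  · exact key _ (det_blockA h) _ hA0 hA.symm

variable {p : ℕ} [hp : Fact p.Prime] [CharP K p]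

/-- `M - r`. -/
def shiftMap (k : ↥(Lie.G2 K)) (r : K) (x : O) : O := mat k *ᵥ x - r • x

set_option maxHeartbeats 1000000 in
/-- Elements of `p`-power order commuting with a stabiliser with distinct eigenvalues `1, b, c`. -/
theorem pow_p_eq_one_of_commute (hp2 : p ≠ 2) {k : ↥(Lie.G2 K)} (h : mat k *ᵥ idE = idE) {b c : K}
    (hprod : b * c = 1) (hsum : 1 + b + c = (blockA k).trace)
    (hsum2 : 1 + b + c = (blockA k).adjugate.trace) (hb : 1 ≠ b) (hc : 1 ≠ c) (hbc : b ≠ c)
    {u : ↥(Lie.G2 K)} (hu : Commute k u) {i : ℕ} (hi : u ^ p ^ i = 1) : u ^ p = 1 := by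
  classical
  obtain ⟨hdB, htB, hsB⟩ := blockB_data h
  have ha2 : 1 * b + 1 * c + b * c = (blockA k).adjugate.trace := by
    rw [← hsum2, hprod]; ring
  have hb1 : 1 + b + c = (blockB k).trace := hsum2.trans htB.symm
  have hb2 : 1 * b + 1 * c + b * c = (blockB k).adjugate.trace := by
    rw [hsB, ← hsum, hprod]; ring
  -- the product of the three shifts kills the vectors of trace zero
  have hann : ∀ x : O, shiftMap k 1 (shiftMap k b (shiftMap k c x)) = 0 := by
    intro x
    have hc0 : ∀ r (y : O), shiftMap k r y 0 = (1 - r) * y 0 ∧ shiftMap k r y 7 = (1 - r) * y 7 := fun r y => by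
      obtain ⟨e0, e7, -, -⟩ := apply_fix h y
      simp [shiftMap, e0, e7, sub_mul]
    have hcA : ∀ r (y : O), shiftMap k r y ∘ eA = (blockA k - r • 1) *ᵥ (y ∘ eA) ∧
        shiftMap k r y ∘ eB = (blockB k - r • 1) *ᵥ (y ∘ eB) := fun r y => by
      obtain ⟨-, -, eAy, eBy⟩ := apply_fix h y
      rw [sub_mulVec, sub_mulVec, smul_mulVec, smul_mulVec, one_mulVec, one_mulVec, ← eAy, ← eBy]
      exact ⟨rfl, rfl⟩
    have hA0 := aeval_cubic_eq_zero (blockA k) (det_blockA h) (a := 1) hsum ha2 (by rw [one_mul, hprod])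
    have hB0 := aeval_cubic_eq_zero (blockB k) hdB (a := 1) hb1 hb2 (by rw [one_mul, hprod])
    simp only [map_mul, map_sub, aeval_X, aeval_C, Algebra.algebraMap_eq_smul_one] at hA0 hB0
    set y := shiftMap k 1 (shiftMap k b (shiftMap k c x)) with hy
    have yA : y ∘ eA = 0 := by
      rw [hy, (hcA _ _).1, (hcA _ _).1, (hcA _ _).1, mulVec_mulVec, mulVec_mulVec, hA0, zero_mulVec]
    have yB : y ∘ eB = 0 := by
      rw [hy, (hcA _ _).2, (hcA _ _).2, (hcA _ _).2, mulVec_mulVec, mulVec_mulVec, hB0, zero_mulVec]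
    have y0 : y 0 = 0 := by rw [hy, (hc0 _ _).1]; ring
    have y7 : y 7 = 0 := by rw [hy, (hc0 _ _).2]; ring
    have a := congrFun yA
    have b' := congrFun yB
    simp [eA, eB, Fin.forall_fin_succ] at a b'
    funext j
    fin_cases j <;> simp_all
  set N : Module.End K O := mulVecLin (mat u - 1) with hN
  have hN0 : N ^ p ^ i = 0 := by
    rw [hN, ← toLin'_apply', ← toLin'_pow, mat_sub_one_pow, hi]
    show toLin' ((1 : Matrix (Fin 8) (Fin 8) K) - 1) = 0
    rw [sub_self, map_zero]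
  have hNx : ∀ x, N x = mat u *ᵥ x - x := fun x => by rw [hN, mulVecLin_apply, sub_mulVec, one_mulVec]
  -- on an eigenspace of trace zero
  have heig : ∀ r, (r = 1 ∨ r = b ∨ r = c) → ∀ x : O, x 0 + x 7 = 0 → shiftMap k r x = 0 → (N ^ 3) x = 0 := by
    intro r hr x hxt hxs
    let S : Submodule K O :=
      LinearMap.ker (LinearMap.proj (R := K) (φ := fun _ : Fin 8 => K) 0 + LinearMap.proj 7) ⊓
        LinearMap.ker (mulVecLin (mat k) - r • LinearMap.id)
    have hmem : ∀ y, y ∈ S ↔ y 0 + y 7 = 0 ∧ mat k *ᵥ y = r • y := fun y => by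
      simp [S, sub_eq_zero]
    obtain ⟨r', r'', hab, hac, hs1, hs2, hs3, hs4⟩ : ∃ r' r'' : K, r ≠ r' ∧ r ≠ r'' ∧
        r + r' + r'' = (blockA k).trace ∧ r * r' + r * r'' + r' * r'' = (blockA k).adjugate.trace ∧
        r + r' + r'' = (blockB k).trace ∧ r * r' + r * r'' + r' * r'' = (blockB k).adjugate.trace := by
      rcases hr with rfl | rfl | rfl
      · exact ⟨b, c, hb, hc, hsum, ha2, hb1, hb2⟩
      · exact ⟨1, c, hb.symm, hbc, by linear_combination hsum, by linear_combination ha2,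
          by linear_combination hb1, by linear_combination hb2⟩
      · exact ⟨1, b, hc.symm, hbc.symm, by linear_combination hsum, by linear_combination ha2,
          by linear_combination hb1, by linear_combination hb2⟩
    obtain ⟨jA, hjA⟩ := exists_coord (blockA k) hs1 hs2 hab hac
    obtain ⟨jB, hjB⟩ := exists_coord (blockB k) hs3 hs4 hab hac
    refine pow_eq_zero_on N hN0 S ?_ (W := Fin 3 → K) (d := 3) (by simp)
      (LinearMap.funLeft K K ![0, eA jA, eB jB]) ?_ ((hmem x).2 ⟨hxt, sub_eq_zero.1 hxs⟩)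
    · intro y hy
      rw [hmem] at hy ⊢
      obtain ⟨hy1, hy2⟩ := hy
      refine ⟨?_, ?_⟩
      · rw [hNx, Pi.sub_apply, Pi.sub_apply]
        linear_combination trace_map u y
      · rw [hNx, mulVec_sub, mulVec_mulVec, ← mat_mul, hu.eq, mat_mul, ← mulVec_mulVec, hy2, mulVec_smul,
          smul_sub]
    · intro y hy hcy
      rw [hmem] at hy
      obtain ⟨hy1, hy2⟩ := hy
      have e0 : y 0 = 0 := congrFun hcy 0
      have eA0 : y (eA jA) = 0 := congrFun hcy 1
      have eB0 : y (eB jB) = 0 := congrFun hcy 2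
      obtain ⟨-, -, hA, hB⟩ := apply_fix h y
      rw [hy2] at hA hB
      have a := congrFun (hjA (y ∘ eA) (hA.symm.trans rfl) eA0)
      have b' := congrFun (hjB (y ∘ eB) (hB.symm.trans rfl) eB0)
      have e7 : y 7 = 0 := by linear_combination hy1 - e0
      simp [eA, eB, Fin.forall_fin_succ] at a b'
      funext j
      fin_cases j <;> simp_all
  have hN3 : ∀ x, (N ^ 3) x = 0 := by
    intro x
    have hone : (N ^ 3) one = 0 := by
      rw [pow_succ, Module.End.mul_apply, hNx, map_one', sub_self, map_zero]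
    have h2 : (2 : K) ≠ 0 := fun h => hp2 ((Nat.prime_dvd_prime_iff_eq hp.out Nat.prime_two).1
      ((CharP.cast_eq_zero_iff K p 2).1 (by exact_mod_cast h)))
    obtain ⟨x', hx't, hx'⟩ : ∃ x' : O, x' 0 + x' 7 = 0 ∧ x = x' + ((x 0 + x 7) / 2) • one :=
      ⟨x - ((x 0 + x 7) / 2) • one, by simp [one]; field_simp; ring, by abel⟩
    have hsh : ∀ r (y : O), shiftMap k r y 0 + shiftMap k r y 7 = (1 - r) * (y 0 + y 7) := fun r y => by
      simp only [shiftMap, Pi.sub_apply, Pi.smul_apply, smul_eq_mul]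
      linear_combination trace_map k y
    have htz : ∀ r r' (y : O), y 0 + y 7 = 0 →
        shiftMap k r (shiftMap k r' y) 0 + shiftMap k r (shiftMap k r' y) 7 = 0 := fun r r' y hy => by
      rw [hsh, hsh, hy, mul_zero, mul_zero]
    have hcomm : ∀ r r' (y : O), shiftMap k r (shiftMap k r' y) = shiftMap k r' (shiftMap k r y) := fun r r' y => by
      simp only [shiftMap, mulVec_sub, mulVec_smul]; module
    have e1 := heig 1 (Or.inl rfl) _ (htz b c x' hx't) (hann x')
    have e2 := heig b (Or.inr (Or.inl rfl)) _ (htz 1 c x' hx't) (by rw [hcomm, hann])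
    have e3 := heig c (Or.inr (Or.inr rfl)) _ (htz 1 b x' hx't)
      (by rw [hcomm c 1, hcomm c b, hann])
    have hid : ((1 - b) * (b - c) * (c - 1)) • x' = (c - b) • shiftMap k b (shiftMap k c x') +
        (1 - c) • shiftMap k 1 (shiftMap k c x') + (b - 1) • shiftMap k 1 (shiftMap k b x') := by
      simp only [shiftMap, mulVec_sub, mulVec_smul]; module
    have h0 := congrArg (fun y => (N ^ 3) y) hid
    simp only [map_add, map_smul, e1, e2, e3, smul_zero, add_zero] at h0
    have hΔ : (1 - b) * (b - c) * (c - 1) ≠ 0 :=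
      mul_ne_zero (mul_ne_zero (sub_ne_zero.2 hb) (sub_ne_zero.2 hbc)) (sub_ne_zero.2 hc.symm)
    rw [hx', map_add, map_smul, hone, smul_zero, add_zero]
    exact (smul_eq_zero.1 h0).resolve_left hΔ
  have h3 : 3 ≤ p ^ 1 := by have := hp.out.two_le; rw [pow_one]; omega
  have := pow_eq_one_of_nilp u (i := 1) h3 hN3
  rwa [pow_one] at this

/-- A semisimple element fixing an idempotent and a null vector. -/
theorem semisimple_case (hp2 : p ≠ 2) {q : ℕ} (hq : 1 ≤ q) (σ : K →+* K) (hσ : ∀ x, σ x = x ^ q)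
    {k : ↥(Lie.G2 K)} (hk : mat k *ᵥ idE = idE) {m : ℕ} (hm : Nat.Coprime m p) (hkm : k ^ m = 1)
    {r₁ r₂ r₃ t : K} (hprod : r₁ * r₂ * r₃ = 1) (hsum : r₁ + r₂ + r₃ = t)
    (hsum2 : r₁ * r₂ + r₁ * r₃ + r₂ * r₃ = t) (hA1 : (blockA k).trace = t) (hA2 : (blockA k).adjugate.trace = t)
    (hpow : ∀ M : ℕ, (X - C r₁) * (X - C r₂) * (X - C r₃) ∣ X ^ M - 1 → k ^ M = 1)
    (htq : t ^ q = t) :
    k ^ 2 = 1 ∨ ∃ e, (e = q - 1 ∨ e = q + 1) ∧ k ^ e = 1 ∧
      ∀ u : ↥(Lie.G2 K), Commute k u → ∀ i : ℕ, u ^ p ^ i = 1 → u ^ p = 1 := by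
  have h1root : (r₁ - 1) * (r₂ - 1) * (r₃ - 1) = 0 := by linear_combination hprod + hsum - hsum2
  obtain ⟨b, hdvd, hb⟩ : ∃ b, ((X - C r₁) * (X - C r₂) * (X - C r₃) = (X - C 1) * (X - C b) * (X - C b⁻¹)) ∧
      b + b⁻¹ + 1 = t := by
    rcases mul_eq_zero.1 h1root with h | h
    rcases mul_eq_zero.1 h with h | h
    · rw [sub_eq_zero] at h; subst h
      rw [one_mul] at hprod
      refine ⟨r₂, ?_, ?_⟩
      · rw [← eq_inv_of_mul_eq_one_right hprod]
      · rw [← eq_inv_of_mul_eq_one_right hprod]; linear_combination hsum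
    · rw [sub_eq_zero] at h; subst h
      rw [mul_one] at hprod
      refine ⟨r₁, ?_, ?_⟩
      · rw [← eq_inv_of_mul_eq_one_right hprod]; ring
      · rw [← eq_inv_of_mul_eq_one_right hprod]; linear_combination hsum
    · rw [sub_eq_zero] at h; subst h
      rw [mul_one] at hprod
      refine ⟨r₁, ?_, ?_⟩
      · rw [← eq_inv_of_mul_eq_one_right hprod]; ring
      · rw [← eq_inv_of_mul_eq_one_right hprod]; linear_combination hsum
  by_cases hb2 : b ^ 2 = 1
  · left
    have h2p : k ^ (p * 2) = 1 := hpow _ (hdvd ▸ prod_dvd_char hp2 1 b b⁻¹ (M := 2) (by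
      rintro x (rfl | rfl | rfl)
      exacts [one_pow _, hb2, by rw [inv_pow, hb2, inv_one]]))
    rw [← orderOf_dvd_iff_pow_eq_one] at hkm h2p ⊢
    exact (Nat.Coprime.coprime_dvd_left hkm hm).dvd_of_dvd_mul_left h2p
  have hb0 : b ≠ 0 := by
    rintro rfl
    have := congrArg (fun P : K[X] => P.eval 0) hdvd
    simp [hprod] at this
  have hb1 : (1 : K) ≠ b := fun e => hb2 (by rw [← e, one_pow])
  have hbi1 : (1 : K) ≠ b⁻¹ := fun e => hb1 (inv_eq_one.1 e.symm).symm
  have hbb' : b ≠ b⁻¹ := fun e => hb2 (by rw [pow_two]; nth_rewrite 2 [e]; exact mul_inv_cancel₀ hb0)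
  have hbb : (b ^ q - b) * (b ^ q - b⁻¹) = 0 := by
    have := congrArg σ hb
    simp only [map_add, map_inv₀, map_one] at this
    rw [hσ b, hσ t, htq, ← hb] at this
    have hbq : b ^ q ≠ 0 := pow_ne_zero _ hb0
    field_simp at this ⊢
    linear_combination this
  have hU : ∀ u : ↥(Lie.G2 K), Commute k u → ∀ i : ℕ, u ^ p ^ i = 1 → u ^ p = 1 := fun u hu i hi =>
    pow_p_eq_one_of_commute hp2 hk (mul_inv_cancel₀ hb0) (by rw [hA1, ← hb]; ring) (by rw [hA2, ← hb]; ring)
      hb1 hbi1 hbb' hu hi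
  right
  rcases mul_eq_zero.1 hbb with hc | hc
  · refine ⟨q - 1, Or.inl rfl, hpow _ (hdvd ▸ prod_dvd 1 b b⁻¹ ?_ hb1 hbi1 hbb'), hU⟩
    have hbp : b ^ (q - 1) = 1 := pow_eq_one_of_mul (k := 1)
      (by rw [Nat.sub_add_cancel hq, pow_one, ← sub_eq_zero, hc]) hb0
    rintro u (rfl | rfl | rfl)
    · exact one_pow _
    · exact hbp
    · rw [inv_pow, hbp, inv_one]
  · refine ⟨q + 1, Or.inr rfl, hpow _ (hdvd ▸ prod_dvd 1 b b⁻¹ ?_ hb1 hbi1 hbb'), hU⟩
    have hbp : b ^ (q + 1) = 1 := by rw [pow_succ, sub_eq_zero.1 hc, inv_mul_cancel₀ hb0]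
    rintro u (rfl | rfl | rfl)
    · exact one_pow _
    · exact hbp
    · rw [inv_pow, hbp, inv_one]

end Cfsg.Agent.H48.G2Spec
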