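import Cfsg.Agent.H48.G2Spec.Semisimple
import Cfsg.Agent.H93.G2InvolutionApps
import Cfsg.Agent.H46.Commutator

/-!
# Every element order of `G₂(q)`, `q ≥ 5` odd, divides one of the listed numbers

`core` follows the corresponding step of `Cfsg.Agent.H62.G2Orders.orderOf_dvd`.
-/

set_option autoImplicit false

open Matrix hiding swap one
open Cfsg.Lie Polynomial
open Cfsg.Agent.H62.Covering.G2 Cfsg.Agent.H62.G2Orders

namespace Cfsg.Agent.H48.G2Spec

section closed

variable {K : Type*} [Field K] [IsAlgClosed K]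

set_option maxHeartbeats 1000000 in
/-- The cubic of a stabiliser element and its behaviour under the Galois twist. -/
theorem core {q : ℕ} (σ : K →+* K) (hσ : ∀ x, σ x = x ^ q) (y k : ↥(Lie.G2 K))
    (hyE : mat y *ᵥ idE = idE ∨ mat y *ᵥ idE = idE') (hk : mat k *ᵥ idE = idE)
    (hσk : mapG2 σ k = y * k * y⁻¹) :
    ∃ r₁ r₂ r₃ : K, r₁ * r₂ * r₃ = 1 ∧ r₁ + r₂ + r₃ = (blockA k).trace ∧
      r₁ * r₂ + r₁ * r₃ + r₂ * r₃ = (blockA k).adjugate.trace ∧
      (∀ M : ℕ, (X - C r₁) * (X - C r₂) * (X - C r₃) ∣ X ^ M - 1 → k ^ M = 1) ∧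
      ((((blockA k).trace ^ q = (blockA k).trace) ∧ (blockA k).adjugate.trace ^ q = (blockA k).adjugate.trace) ∨
       (((blockA k).trace ^ q = (blockA k).adjugate.trace) ∧ (blockA k).adjugate.trace ^ q = (blockA k).trace)) := by
  set t := (blockA k).trace with ht
  set s := (blockA k).adjugate.trace with hs
  obtain ⟨r₁, hr1⟩ := IsAlgClosed.exists_root (X ^ 3 - C t * X ^ 2 + C s * X - 1 : K[X]) (by
    rw [show (X ^ 3 - C t * X ^ 2 + C s * X - 1 : K[X]) = C 1 * X ^ 3 + C (-t) * X ^ 2 + C s * X + C (-1) by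
      simp; ring, degree_cubic one_ne_zero]
    decide)
  simp only [IsRoot.def, eval_add, eval_sub, eval_mul, eval_pow, eval_X, eval_C, eval_one] at hr1
  obtain ⟨r₂, hr2⟩ := IsAlgClosed.exists_root (X ^ 2 + C (r₁ - t) * X + C (s + r₁ * (r₁ - t)) : K[X]) (by
    rw [show (X ^ 2 + C (r₁ - t) * X + C (s + r₁ * (r₁ - t)) : K[X]) =
      C 1 * X ^ 2 + C (r₁ - t) * X + C (s + r₁ * (r₁ - t)) by simp, degree_quadratic one_ne_zero]
    decide)
  simp only [IsRoot.def, eval_add, eval_mul, eval_pow, eval_X, eval_C] at hr2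
  refine ⟨r₁, r₂, t - r₁ - r₂, by linear_combination hr1 - r₁ * hr2, by ring, by linear_combination -hr2,
    fun M hM => ?_, ?_⟩
  · refine eq_one_of_blockA (fix_pow hk M) ?_
    obtain ⟨w, hw⟩ := hM
    have hv := congrArg (aeval (blockA k)) hw
    rw [map_mul, aeval_cubic_eq_zero _ (det_blockA hk) (by ring) (by rw [← hs]; linear_combination -hr2)
      (by linear_combination hr1 - r₁ * hr2), zero_mul, map_sub, map_pow, aeval_X, map_one, sub_eq_zero] at hv
    rw [blockA_pow hk, hv]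
  · have hP : ∀ P : Matrix (Fin 8) (Fin 8) K, P.map σ = P →
        σ ((P * mat k).trace) = (P * (mat y * mat k * mat y⁻¹)).trace := by
      intro P hP
      rw [← mat_mul, ← mat_mul, ← hσk, mat_mapG2, show σ ((P * mat k).trace) = ((P * mat k).map σ).trace from
        map_sum σ (fun i => (P * mat k) i i) Finset.univ]
      congr 1
      show (P * mat k).map σ = _
      rw [Matrix.map_mul, hP]
    have hm1 : (proj1 : Matrix (Fin 8) (Fin 8) K).map σ = proj1 := by
      rw [proj1, diagonal_map (map_zero σ)]; congr 1; funext i; fin_cases i <;> simp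
    have hm2 : (proj2 : Matrix (Fin 8) (Fin 8) K).map σ = proj2 := by
      rw [proj2, diagonal_map (map_zero σ)]; congr 1; funext i; fin_cases i <;> simp
    have hyy : mat y⁻¹ * mat y = 1 := by rw [← mat_mul, inv_mul_cancel]; rfl
    have hcyc : ∀ P Q : Matrix (Fin 8) (Fin 8) K, P * mat y = mat y * Q →
        (P * (mat y * mat k * mat y⁻¹)).trace = (Q * mat k).trace := by
      intro P Q hPQ
      rw [← mul_assoc, ← mul_assoc, hPQ, trace_mul_comm, ← mul_assoc, ← mul_assoc, hyy, one_mul]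
    rw [ht, hs, ← hσ, ← hσ, ← trace_proj1, ← trace_proj2 hk, hP _ hm1, hP _ hm2]
    rcases hyE with hw | hw
    · obtain ⟨c1, c2⟩ := commute_proj hw
      exact Or.inl ⟨hcyc _ _ c1.symm, hcyc _ _ c2.symm⟩
    · obtain ⟨c1, c2⟩ := swap_proj hw
      exact Or.inr ⟨hcyc _ _ c2.symm, hcyc _ _ c1.symm⟩

end closed

section setup

variable {F K : Type*} [Field F] [Field K] [IsAlgClosed K]

/-- A non-null vector of trace zero gives an idempotent over the closure, conjugate to the standard one. -/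
theorem exists_conj_idE (h2 : (2 : K) ≠ 0) (ι : F →+* K) (σ : K →+* K) (hσι : ∀ x, σ (ι x) = ι x)
    {v : Fin 8 → F} (hv : v 0 + v 7 = 0) (hvn : nrm v ≠ 0) :
    ∃ x y : ↥(Lie.G2 K), (mat y *ᵥ idE = idE ∨ mat y *ᵥ idE = idE') ∧ ∀ k : ↥(Lie.G2 F), mat k *ᵥ v = v →
      mat (x * mapG2 ι k * x⁻¹) *ᵥ idE = idE ∧
        mapG2 σ (x * mapG2 ι k * x⁻¹) = y * (x * mapG2 ι k * x⁻¹) * y⁻¹ := by
  have hn0 : ι (nrm v) ≠ 0 := fun h => hvn (by simpa using h)
  obtain ⟨z, hz⟩ := IsAlgClosed.exists_pow_nat_eq (-(ι (nrm v))⁻¹) two_pos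
  set e' : Fin 8 → K := (2 : K)⁻¹ • one + ((2 : K)⁻¹ * z) • (ι ∘ v) with he'
  have hvι : ι (v 0) + ι (v 7) = 0 := by rw [← map_add, hv, map_zero]
  have he't : e' 0 + e' 7 = 1 := by
    simp only [he', Pi.add_apply, Pi.smul_apply, smul_eq_mul, Function.comp_apply]
    simp [one]
    field_simp
    linear_combination z * hvι
  have he'n : nrm e' = 0 := by
    have e : nrm e' = nrm (((2 : K)⁻¹ * z) • (ι ∘ v) + (2 : K)⁻¹ • one) := by rw [he', add_comm]
    rw [e, nrm_add_one]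
    have hn : nrm (((2 : K)⁻¹ * z) • (ι ∘ v)) = ((2 : K)⁻¹ * z) ^ 2 * ι (nrm v) := by
      simp [nrm]; ring
    rw [hn, mul_pow, hz]
    simp only [Pi.smul_apply, smul_eq_mul, Function.comp_apply]
    field_simp
    linear_combination z * hvι
  obtain ⟨x, hx⟩ : ∃ x : ↥(Lie.G2 K), mat x *ᵥ e' = idE := by
    rcases orb_idem e' he't he'n with ⟨x, hx⟩ | ⟨x, hx⟩
    · exact ⟨x, hx⟩
    · refine ⟨swap * x, ?_⟩
      rw [mat_mul, ← mulVec_mulVec, hx, swap, mk_mulVec]
      funext i; fin_cases i <;> simp [swapMap, idE]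
  have hxi : mat x⁻¹ *ᵥ idE = e' := by rw [← hx, mat_inv_mulVec]
  have hσE : σ ∘ (idE : Fin 8 → K) = idE := by funext i; fin_cases i <;> simp [idE]
  have hσx : mat (mapG2 σ x) *ᵥ (σ ∘ e') = idE := by rw [mat_mapG2, comp_mulVec, hx, hσE]
  have key : σ ∘ e' = (2 : K)⁻¹ • one + ((2 : K)⁻¹ * σ z) • (ι ∘ v) := by
    funext i
    simp only [he', Function.comp_apply, Pi.add_apply, Pi.smul_apply, smul_eq_mul, map_add, map_mul, map_inv₀,
      map_ofNat, hσι]
    fin_cases i <;> simp [one]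
  have hσe : σ ∘ e' = e' ∨ σ ∘ e' = one - e' := by
    have hz2 : σ z ^ 2 = z ^ 2 := by rw [← map_pow, hz, map_neg, map_inv₀, hσι]
    rcases sq_eq_sq_iff_eq_or_eq_neg.1 hz2 with hw | hw
    · left; rw [key, hw]
    · right
      rw [key, hw, he']
      funext i
      simp only [Pi.sub_apply, Pi.add_apply, Pi.smul_apply, smul_eq_mul]
      field_simp
      ring
  refine ⟨x, mapG2 σ x * x⁻¹, ?_, fun k hk => ⟨?_, ?_⟩⟩
  · rw [mat_mul, ← mulVec_mulVec, hxi]
    rcases hσe with hw | hw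
    · left; rwa [hw] at hσx
    · right
      rw [hw, mulVec_sub, map_one'] at hσx
      rw [show mat (mapG2 σ x) *ᵥ e' = one - idE by rw [← hσx, sub_sub_cancel]]
      funext i; fin_cases i <;> simp [idE, idE', one]
  · have hke : mat (mapG2 ι k) *ᵥ e' = e' := by
      rw [he', mulVec_add, mulVec_smul, mulVec_smul, map_one', mat_mapG2, comp_mulVec, hk]
    rw [mat_mul, mat_mul, ← mulVec_mulVec, ← mulVec_mulVec, hxi, hke, hx]
  · have hσk : mapG2 σ (mapG2 ι k) = mapG2 ι k := by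
      refine mat_injective ?_
      show mat (mapG2 σ (mapG2 ι k)) = mat (mapG2 ι k)
      rw [mat_mapG2, mat_mapG2, Matrix.map_map]
      exact Matrix.ext fun i j => hσι _
    rw [map_mul, map_mul, hσk, map_inv]
    group

end setup

section finite

variable {F : Type*} [Field F] [Fintype F] {p : ℕ} [hp : Fact p.Prime] [CharP F p]

theorem frobenius_data (a : ℕ) (hq : Fintype.card F = p ^ a) :
    ∃ σ : AlgebraicClosure F →+* AlgebraicClosure F, (∀ x, σ x = x ^ p ^ a) ∧
      ∀ x : F, σ (algebraMap F (AlgebraicClosure F) x) = algebraMap F (AlgebraicClosure F) x := by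
  haveI : CharP (AlgebraicClosure F) p :=
    charP_of_injective_ringHom (algebraMap F (AlgebraicClosure F)).injective p
  refine ⟨iterateFrobenius _ p a, fun x => iterateFrobenius_def p a x, fun x => ?_⟩
  rw [iterateFrobenius_def, ← map_pow, ← hq, FiniteField.pow_card]

/-- An element fixing a non-null vector of trace zero. -/
theorem nonnull_case (hp2 : p ≠ 2) (a : ℕ) (hq : Fintype.card F = p ^ a) (k : ↥(Lie.G2 F)) {v : Fin 8 → F}
    (hv : v 0 + v 7 = 0) (hvn : nrm v ≠ 0) (hk : mat k *ᵥ v = v) : ∃ n ∈ fiveSet p a, k ^ n = 1 := by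
  obtain ⟨σ, hσ, hσι⟩ := frobenius_data (p := p) a hq
  let ι := algebraMap F (AlgebraicClosure F)
  haveI : CharP (AlgebraicClosure F) p := charP_of_injective_ringHom ι.injective p
  have h2 : (2 : AlgebraicClosure F) ≠ 0 := fun h => hp2 ((Nat.prime_dvd_prime_iff_eq hp.out Nat.prime_two).1
    ((CharP.cast_eq_zero_iff _ p 2).1 (by exact_mod_cast h)))
  obtain ⟨x, y, hy, hxy⟩ := exists_conj_idE h2 ι σ hσι hv hvn
  obtain ⟨hE, hσh⟩ := hxy k hk
  obtain ⟨r₁, r₂, r₃, hprod, hsum, hsum2, hpow, hts⟩ := core σ hσ y _ hy hE hσh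
  obtain ⟨n, hn, hn1⟩ := fixed_case hp2 a rfl σ hσ _ hprod hsum hsum2 hpow hts
  refine ⟨n, hn, mapG2_injective ι ?_⟩
  rw [map_pow, map_one]
  rwa [conj_pow, conj_eq_one_iff] at hn1

/-- An element of order prime to `p` fixing a non-zero null vector of trace zero. -/
theorem null_case (hp2 : p ≠ 2) (a : ℕ) (hq : Fintype.card F = p ^ a) (s : ↥(Lie.G2 F)) {m : ℕ}
    (hm : Nat.Coprime m p) (hs : s ^ m = 1) {v₀ : Fin 8 → F} (hv : v₀ ≠ 0) (ht : v₀ 0 + v₀ 7 = 0)
    (hn : nrm v₀ = 0) (hfix : mat s *ᵥ v₀ = v₀) :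
    s ^ 2 = 1 ∨ ∃ e, (e = p ^ a - 1 ∨ e = p ^ a + 1) ∧ s ^ e = 1 ∧
      ∀ u : ↥(Lie.G2 F), Commute s u → ∀ i : ℕ, u ^ p ^ i = 1 → u ^ p = 1 := by
  obtain ⟨σ, hσ, hσι⟩ := frobenius_data (p := p) a hq
  let ι := algebraMap F (AlgebraicClosure F)
  haveI : CharP (AlgebraicClosure F) p := charP_of_injective_ringHom ι.injective p
  have h2 : (2 : F) ≠ 0 := fun h => hp2 ((Nat.prime_dvd_prime_iff_eq hp.out Nat.prime_two).1
    ((CharP.cast_eq_zero_iff _ p 2).1 (by exact_mod_cast h)))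
  have h2K : (2 : AlgebraicClosure F) ≠ 0 := fun h => h2 (ι.injective (by rw [map_ofNat, map_zero, h]))
  have hmF : (m : F) ≠ 0 := fun h =>
    hp.out.ne_one (Nat.eq_one_of_dvd_coprimes hm ((CharP.cast_eq_zero_iff F p m).1 h) dvd_rfl)
  obtain ⟨v, hvt, hvn, hsv⟩ := exists_nonnull h2 s hmF hs hv ht hn hfix
  obtain ⟨x, y, hy, hxy⟩ := exists_conj_idE h2K ι σ hσι hvt hvn
  obtain ⟨hE, hσh⟩ := hxy s hsv
  obtain ⟨r₁, r₂, r₃, hprod, hsum, hsum2, hpow, hts⟩ := core σ hσ y _ hy hE hσh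
  set h := x * mapG2 ι s * x⁻¹ with hh
  have hts' : (blockA h).trace = (blockA h).adjugate.trace := by
    refine trace_eq_of_fixed h2K hE (w := mat x *ᵥ (ι ∘ v₀)) ?_ ?_ ?_ ?_
    · intro e
      have := congrArg (mat x⁻¹ *ᵥ ·) e
      simp only [mat_inv_mulVec, mulVec_zero] at this
      exact hv (funext fun i => ι.injective ((congrFun this i).trans (map_zero ι).symm))
    · rw [trace_map]
      simp [← map_add, ht]
    · rw [map_nrm]
      show nrm (ι ∘ v₀) = 0
      rw [show nrm (ι ∘ v₀) = ι (nrm v₀) by simp [nrm], hn, map_zero]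
    · rw [hh, mat_mul, mat_mul, ← mulVec_mulVec, ← mulVec_mulVec, mat_inv_mulVec, mat_mapG2, comp_mulVec, hfix]
  have htq : (blockA h).trace ^ (p ^ a) = (blockA h).trace := by
    rcases hts with ⟨h1, -⟩ | ⟨h1, -⟩
    · exact h1
    · rw [h1, ← hts']
  rw [← hts'] at hsum2
  have hhm : h ^ m = 1 := by rw [hh, conj_pow, ← map_pow, hs, map_one, mul_one, mul_inv_cancel]
  have back : ∀ (g : ↥(Lie.G2 F)) (n : ℕ), (x * mapG2 ι g * x⁻¹) ^ n = 1 → g ^ n = 1 := fun g n hg => by
    refine mapG2_injective ι ?_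
    rw [map_pow, map_one]
    rwa [conj_pow, conj_eq_one_iff] at hg
  rcases semisimple_case hp2 (Nat.one_le_pow a p hp.out.pos) σ hσ hE hm hhm hprod hsum hsum2 rfl hts'.symm
    hpow htq with hh2 | ⟨e, he, hhe, hU⟩
  · exact Or.inl (back s 2 hh2)
  · refine Or.inr ⟨e, he, back s e hhe, fun u hu i hui => back u p (hU _ ?_ i ?_)⟩
    · rw [hh]
      exact (hu.map (mapG2 ι)).map (MulAut.conj x)
    · rw [conj_pow, ← map_pow, hui, map_one, mul_one, mul_inv_cancel]

/-- An element of `GL₂` of order a power of `p` has order dividing `p`. -/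
theorem gl2_pow_p (P : GL (Fin 2) F) {i : ℕ} (h : P ^ p ^ i = 1) : P ^ p = 1 := by
  have h0 : ((P : Matrix (Fin 2) (Fin 2) F) - 1) ^ p ^ i = 0 := by
    rw [sub_pow_char_pow_of_commute _ _ (Commute.one_right _), one_pow, ← Units.val_pow_eq_pow_val, h,
      Units.val_one, sub_self]
  have h2 : ((P : Matrix (Fin 2) (Fin 2) F) - 1) ^ 2 = 0 := by
    have := Matrix.isNilpotent_charpoly_sub_pow_of_isNilpotent ⟨_, h0⟩
    have e := Matrix.aeval_self_charpoly ((P : Matrix (Fin 2) (Fin 2) F) - 1)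
    rw [isNilpotent_iff_eq_zero, sub_eq_zero] at this
    rw [this] at e
    simpa using e
  apply Units.ext
  have hp' : 2 ≤ p := hp.out.two_le
  have h1 : ((P : Matrix (Fin 2) (Fin 2) F) - 1) ^ p = 0 := by
    rw [← Nat.sub_add_cancel hp', pow_add, h2, mul_zero]
  rw [sub_pow_char_of_commute _ (Commute.one_right _), one_pow, sub_eq_zero] at h1
  rw [Units.val_pow_eq_pow_val, Units.val_one, h1]

open Cfsg.Agent.H93.G2Quat in
/-- In the centraliser of an involution the `p`-elements have order at most `p`. -/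
theorem involution_case (hp2 : p ≠ 2) (a : ℕ) (hq : Fintype.card F = p ^ a) (s u : ↥(chevG2.group F))
    (hs : orderOf s = 2) (hu : Commute s u) {i : ℕ} (hi : u ^ p ^ i = 1) : u ^ p = 1 := by
  have hodd : Odd (Fintype.card F) := hq ▸ (hp.out.odd_of_ne_two hp2).pow
  obtain ⟨χ, -, -, hcent, -⟩ := H93.G2Inv.exists_chi_at hodd s hs
  have hmem : u ∈ Subgroup.centralizer {s} := Subgroup.mem_centralizer_singleton_iff.2 hu.eq.symm
  rw [hcent] at hmem
  obtain ⟨w, rfl⟩ := hmem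
  have hpos : 0 < orderOf w := orderOf_pos w
  set n' := orderOf w / p ^ (orderOf w).factorization p with hn'
  have hco : Nat.Coprime p n' := Nat.coprime_ordCompl hp.out hpos.ne'
  have hw : (w ^ n') ^ p ^ (orderOf w).factorization p = 1 := by
    rw [← pow_mul, hn', mul_comm, Nat.ordProj_mul_ordCompl_eq_self, pow_orderOf_eq_one]
  have hw1 : (w ^ n') ^ p = 1 := by
    have e := congrArg Subtype.val hw
    rw [SubgroupClass.coe_pow, OneMemClass.coe_one] at e
    refine Subtype.ext ?_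
    rw [SubgroupClass.coe_pow, OneMemClass.coe_one]
    exact Prod.ext (gl2_pow_p _ (congrArg Prod.fst e)) (gl2_pow_p _ (congrArg Prod.snd e))
  have h1 : χ w ^ (n' * p) = 1 := by rw [pow_mul, ← map_pow, ← map_pow, hw1, map_one]
  rw [← orderOf_dvd_iff_pow_eq_one] at h1 hi ⊢
  exact ((Nat.Coprime.pow_left i hco).coprime_dvd_left hi).dvd_of_dvd_mul_left h1

/-- Homomorphisms to the units are trivial on the Chevalley group. -/
theorem det_eq_one {p : ℕ} [Fact p.Prime] [CharP F p] (f : ↥(chevG2.group F) →* Fˣ) (g : ↥(chevG2.group F)) : f g = 1 := by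
  have hle : chevG2.group F ≤ f.ker.map (chevG2.group F).subtype := by
    refine (Subgroup.closure_le _).2 ?_
    rintro e ⟨r, t, he⟩
    have hmem : e ∈ chevG2.group F := Subgroup.subset_closure ⟨r, t, he⟩
    refine ⟨⟨e, hmem⟩, ?_, rfl⟩
    have hpow : ∀ k : ℕ, ((e ^ k : GL chevG2.Idx F) : Matrix chevG2.Idx chevG2.Idx F) = chevG2.x F r (k * t) := by
      intro k
      induction k with
      | zero => rw [pow_zero, Units.val_one, Nat.cast_zero, zero_mul, H46.goodG2.x_zero r.2]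
      | succ k ih =>
        rw [pow_succ, Units.val_mul, ih, he, show chevG2.xMat F r t = chevG2.x F r t by
          simp [ChevalleyDatum.x, r.2], H46.goodG2.x_add r.2, Nat.cast_succ, add_mul, one_mul]
    have he1 : e ^ p = 1 := Units.ext (by rw [hpow, CharP.cast_eq_zero, zero_mul, H46.goodG2.x_zero r.2]; rfl)
    have h1 : (f ⟨e, hmem⟩ : F) ^ p = 1 := by
      rw [← Units.val_pow_eq_pow_val, ← map_pow, show (⟨e, hmem⟩ : ↥(chevG2.group F)) ^ p = 1 from
        Subtype.ext he1, map_one, Units.val_one]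
    have h0 : ((f ⟨e, hmem⟩ : F) - 1) ^ p = 0 := by rw [sub_pow_char, h1, one_pow, sub_self]
    exact Units.ext (by rw [Units.val_one]; exact sub_eq_zero.1 (eq_zero_of_pow_eq_zero h0))
  obtain ⟨g', hg', hgg⟩ := hle g.2
  rw [← show g' = g from Subtype.ext hgg]
  exact hg'

/-- The numbers of the statement. -/
def oddSet (p a : ℕ) : Set ℕ :=
  fiveSet p a ∪ (if p = 3 ∨ p = 5 then ({p ^ 2} : Set ℕ) else ∅)

/-- Every element order divides one of the numbers. -/
theorem orderOf_dvd (hp2 : p ≠ 2) (a : ℕ) (hq : Fintype.card F = p ^ a) (g : ↥(chevG2.group F)) :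
    ∃ n ∈ oddSet p a, orderOf g ∣ n := by
  classical
  have h2 : (2 : F) ≠ 0 := fun h => hp2 ((Nat.prime_dvd_prime_iff_eq hp.out Nat.prime_two).1
    ((CharP.cast_eq_zero_iff _ p 2).1 (by exact_mod_cast h)))
  obtain ⟨ψ, hψ, -⟩ := H93.G2Bridge.exists_hom F ⟨-1, neg_ne_zero.2 one_ne_zero, fun h => h2 (by
    linear_combination -h)⟩
  have hdet : (mat (ψ g)).det = 1 := by
    have := congrArg Units.val (det_eq_one (p := p)
      ((Matrix.GeneralLinearGroup.det).comp ((Lie.G2 F).subtype.comp ψ)) g)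
    simpa using this
  obtain ⟨v, hv0, hvt, hvfix⟩ := exists_fixed h2 (ψ g) hdet
  by_cases hvn : nrm v ≠ 0
  · obtain ⟨n, hn, hn1⟩ := nonnull_case hp2 a hq (ψ g) hvt hvn hvfix
    refine ⟨n, Or.inl hn, orderOf_dvd_of_pow_eq_one (hψ ?_)⟩
    rw [map_pow, hn1, map_one]
  push Not at hvn
  have hpos : 0 < orderOf g := orderOf_pos g
  set i := (orderOf g).factorization p with hi
  set m := orderOf g / p ^ i with hm
  have hgm : p ^ i * m = orderOf g := Nat.ordProj_mul_ordCompl_eq_self _ _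
  have hco : Nat.Coprime m p := (Nat.coprime_ordCompl hp.out hpos.ne').symm
  by_cases hm1 : m = 1
  · have hg : g ^ p ^ i = 1 := by rw [← mul_one (p ^ i), ← hm1, hgm, pow_orderOf_eq_one]
    obtain ⟨h9, h7⟩ := unipotent_case hp2 (ψ g) (i := i) (by rw [← map_pow, hg, map_one])
    by_cases h35 : p = 3 ∨ p = 5
    · refine ⟨p ^ 2, Or.inr (by rw [if_pos h35]; rfl), orderOf_dvd_of_pow_eq_one (hψ ?_)⟩
      rw [map_pow, h9, map_one]
    · have h7' : 7 ≤ p := by
        have := hp.out.two_le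
        have h46 : p ≠ 4 ∧ p ≠ 6 := ⟨fun h => by simp [h] at hp; exact absurd hp.out (by norm_num),
          fun h => by simp [h] at hp; exact absurd hp.out (by norm_num)⟩
        omega
      refine ⟨p * (p ^ a - 1), Or.inl (Or.inr (Or.inl rfl)), orderOf_dvd_of_pow_eq_one ?_⟩
      rw [pow_mul, show g ^ p = 1 from hψ (by rw [map_pow, h7 h7', map_one]), one_pow]
  -- the parts of order prime to `p` and a power of `p`
  have hs : (g ^ p ^ i) ^ m = 1 := by rw [← pow_mul, hgm, pow_orderOf_eq_one]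
  have hsord : orderOf (g ^ p ^ i) = m := by
    rw [orderOf_pow' _ (pow_ne_zero _ hp.out.ne_zero), ← hgm, Nat.gcd_mul_right_left,
      Nat.mul_div_cancel_left _ (pow_pos hp.out.pos i)]
  have hu : (g ^ m) ^ p ^ i = 1 := by rw [← pow_mul, mul_comm, hgm, pow_orderOf_eq_one]
  have hcomm : Commute (g ^ p ^ i) (g ^ m) := (Commute.refl g).pow_pow _ _
  have fin : ∀ e, m ∣ e → (g ^ m) ^ p = 1 → orderOf g ∣ p * e := by
    intro e he hup
    refine (hgm ▸ dvd_refl (orderOf g) : orderOf g ∣ p ^ i * m).trans ?_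
    refine mul_dvd_mul ?_ he
    rw [← pow_mul, ← orderOf_dvd_iff_pow_eq_one, ← hgm, mul_comm (p ^ i)] at hup
    exact (Nat.mul_dvd_mul_iff_left (Nat.pos_of_ne_zero fun h => by rw [h, mul_zero] at hgm; omega)).1 hup
  rcases null_case hp2 a hq (ψ (g ^ p ^ i)) hco (by rw [← map_pow, hs, map_one]) hv0 hvt hvn
      (by rw [map_pow]; exact fix_pow' hvfix _) with hs2 | ⟨e, he, hse, hU⟩
  · rw [← map_pow] at hs2
    have hm2 : m = 2 := by
      have := orderOf_dvd_of_pow_eq_one (show (g ^ p ^ i) ^ 2 = 1 from hψ (by rw [hs2, map_one]))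
      rw [hsord] at this
      exact ((Nat.dvd_prime Nat.prime_two).1 this).resolve_left hm1
    have hup := involution_case hp2 a hq _ _ (hsord.trans hm2) hcomm hu
    have heven : 2 ∣ p ^ a - 1 := by
      have : Odd (p ^ a) := (hp.out.odd_of_ne_two hp2).pow
      obtain ⟨j, hj⟩ := this
      omega
    exact ⟨p * (p ^ a - 1), Or.inl (Or.inr (Or.inl rfl)), fin _ (hm2 ▸ heven) hup⟩
  · have hup : (g ^ m) ^ p = 1 := hψ (by
      rw [map_pow, map_one]
      exact hU _ (hcomm.map ψ) i (by rw [← map_pow, hu, map_one]))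
    have hme : m ∣ e := by
      rw [← hsord]
      exact orderOf_dvd_of_pow_eq_one (hψ (by rw [map_pow, hse, map_one]))
    rcases he with rfl | rfl
    · exact ⟨_, Or.inl (Or.inr (Or.inl rfl)), fin _ hme hup⟩
    · exact ⟨_, Or.inl (Or.inl rfl), fin _ hme hup⟩

end finite

end Cfsg.Agent.H48.G2Spec
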